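import Cfsg.Agent.H138.E65.Data

/-!
# The certificate for `E₆(5)` in characteristic 5 (task CERT of S3650)

`cert` : an element `s` of order 313 such that for every exponent `a ≠ 0` some `g`, `h` satisfy
`∑_{j < 313} ∏_i f_i (g s^j h)^(a_i) ≠ 0`.
-/

set_option autoImplicit false

namespace Cfsg.Agent.H138.E65

open Cfsg.Lie Cfsg.Agent.ChevalleyStructure.E6Min.Tables Cfsg.Agent.ChevalleyStructure.E6Min.Basic
open scoped Matrix

/-! ### words as group elements -/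

/-- the group element of a word -/
def el (w : List (ℕ × ℕ)) : Zgrp F5 := (w.map fun l => (⟨zU l.1 (l.2 : F5), zU_mem _ _⟩ : Zgrp F5)).prod

/-- the inverse transpose of a word -/
def dual (w : List (ℕ × ℕ)) : List (ℕ × ℕ) := w.map fun l => (71 - l.1, 5 - l.2)

theorem el_cons (l : ℕ × ℕ) (w : List (ℕ × ℕ)) :
    el (l :: w) = (⟨zU l.1 (l.2 : F5), zU_mem _ _⟩ : Zgrp F5) * el w := by
  rw [el, List.map_cons, List.prod_cons]; rfl

theorem Mw_cons (l : ℕ × ℕ) (w : List (ℕ × ℕ)) : Mw (l :: w) = zM l.1 (l.2 : F5) * Mw w := by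
  rw [Mw, List.map_cons, List.prod_cons]; rfl

theorem el_mat {w : List (ℕ × ℕ)} (hw : okw w) : ((el w).1 : Matrix I27 I27 F5) = Mw w := by
  induction w with
  | nil => rfl
  | cons l w ih =>
    rw [el_cons, Mw_cons, ← ih (fun l hl => hw l (List.mem_cons_of_mem _ hl)), Subgroup.coe_mul, Units.val_mul,
      coe_zU (hw l List.mem_cons_self)]

theorem Nm_transpose {r : ℕ} (hr : r < 72) : (Nm F5 (71 - r))ᵀ = Nm F5 r := by
  have hr' : 71 - r < 72 := by omega
  have hsg : ∀ {r : ℕ} (_ : r < 72) {x : I27}, sg r x ≠ 0 → sg (71 - r) (sr r x) = sg r x := by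
    intro r hr x hx
    have h := (row_opp hr hx).2.1
    have h1 : sg r x = 1 ∨ sg r x = -1 := Int.isUnit_iff.1 (IsUnit.of_mul_eq_one _ h)
    rcases h1 with h1 | h1 <;> rw [h1] at h ⊢ <;> omega
  ext x y
  rw [Matrix.transpose_apply, Nm_apply, Nm_apply]
  by_cases hx : sg r x = 0
  · by_cases hy : sg (71 - r) y = 0
    · rw [hx, hy]; simp
    · have h1 := row_opp hr' hy
      rw [opp_opp hr] at h1
      have hne : ¬ (x = sr (71 - r) y) := by
        rintro rfl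
        have := h1.2.1
        rw [hx, mul_zero] at this
        exact absurd this (by norm_num)
      rw [if_neg hne, hx]
      simp
  · have h1 := row_opp hr hx
    by_cases hxy : y = sr r x
    · subst hxy
      rw [h1.1, if_pos rfl, if_pos rfl, hsg hr hx]
    · rw [if_neg hxy]
      by_cases hy : sg (71 - r) y = 0
      · rw [hy]; simp
      · have h2 := row_opp hr' hy
        rw [opp_opp hr] at h2
        rw [if_neg]
        rintro rfl
        exact hxy h2.1.symm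

theorem zM_transpose {r : ℕ} (hr : r < 72) (t : F5) : (zM (71 - r) t)ᵀ = zM r t := by
  rw [zM_def, zM_def, Matrix.transpose_add, Matrix.transpose_smul, Matrix.transpose_one, Nm_transpose hr]

theorem zU_inv {r : ℕ} (hr : r < 72) (t : F5) : (((zU r t)⁻¹ : GL I27 F5) : Matrix I27 I27 F5) = zM r (-t) := by
  unfold zU; rw [dif_pos hr]; rfl

/-- the second components are at most 5 -/
def okw' (w : List (ℕ × ℕ)) : Prop := ∀ l ∈ w, l.1 < 72 ∧ l.2 ≤ 5

theorem okw'.ok {w : List (ℕ × ℕ)} (h : okw' w) : okw w := fun l hl => (h l hl).1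

theorem okw'.dual {w : List (ℕ × ℕ)} (h : okw' w) : okw (dual w) := by
  intro l hl
  obtain ⟨m, hm, rfl⟩ := List.mem_map.1 hl
  have := (h m hm).1
  show 71 - m.1 < 72
  omega

theorem cast_sub5 {n : ℕ} (h : n ≤ 5) : ((5 - n : ℕ) : F5) = -(n : F5) := by
  rw [Nat.cast_sub h]
  have : ((5 : ℕ) : F5) = 0 := by decide
  rw [this, zero_sub]

theorem el_inv {w : List (ℕ × ℕ)} (hw : okw' w) : (((el w)⁻¹).1 : Matrix I27 I27 F5) = (Mw (dual w))ᵀ := by
  induction w with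
  | nil =>
    show ((1 : Zgrp F5)⁻¹.1 : Matrix I27 I27 F5) = (1 : Matrix I27 I27 F5)ᵀ
    rw [inv_one, Matrix.transpose_one]
    rfl
  | cons l w ih =>
    have h1 := hw l List.mem_cons_self
    have h2 : dual (l :: w) = (71 - l.1, 5 - l.2) :: dual w := rfl
    rw [el_cons, h2, Mw_cons, mul_inv_rev, Subgroup.coe_mul, Units.val_mul,
      ih (fun l hl => hw l (List.mem_cons_of_mem _ hl)), Matrix.transpose_mul]
    congr 1
    show (((zU l.1 (l.2 : F5))⁻¹ : GL I27 F5) : Matrix I27 I27 F5) = _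
    rw [zU_inv h1.1]
    show _ = (zM (71 - l.1) ((5 - l.2 : ℕ) : F5))ᵀ
    rw [cast_sub5 h1.2, zM_transpose h1.1]

/-! ### the order of `s` -/

/-- the power 313 of a packed matrix -/
def pow313 (A : ℕ) : ℕ :=
  force (mm A A) fun A2 => force (mm A2 A2) fun A4 => force (mm A4 A4) fun A8 => force (mm A8 A8) fun A16 =>
    force (mm A16 A16) fun A32 => force (mm A32 A32) fun A64 => force (mm A64 A64) fun A128 =>
      force (mm A128 A128) fun A256 => force (mm A8 A) fun x => force (mm A16 x) fun x => force (mm A32 x) fun x =>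
        mm A256 x

theorem mm_pow {M N : ℕ} {A : Matrix I27 I27 F5} {m n k : ℕ} (h1 : RpM 4 M (A ^ m)) (h2 : RpM 4 N (A ^ n))
    (hk : m + n = k) : RpM 4 (mm M N) (A ^ k) := by
  rw [← hk, pow_add]
  exact mm_rp h1 h2

theorem pow313_rp {M : ℕ} {A : Matrix I27 I27 F5} (h : RpM 4 M A) : RpM 4 (pow313 M) (A ^ 313) := by
  simp only [pow313, force_eq]
  have h1 : RpM 4 M (A ^ 1) := by rwa [pow_one]
  have h2 := mm_pow (k := 2) h1 h1 (by norm_num)
  have h4 := mm_pow (k := 4) h2 h2 (by norm_num)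
  have h8 := mm_pow (k := 8) h4 h4 (by norm_num)
  have h16 := mm_pow (k := 16) h8 h8 (by norm_num)
  have h32 := mm_pow (k := 32) h16 h16 (by norm_num)
  have h64 := mm_pow (k := 64) h32 h32 (by norm_num)
  have h128 := mm_pow (k := 128) h64 h64 (by norm_num)
  have h256 := mm_pow (k := 256) h128 h128 (by norm_num)
  exact mm_pow (k := 313) h256 (mm_pow (k := 57) h32 (mm_pow (k := 25) h16 (mm_pow (k := 9) h8 h1 (by norm_num))
    (by norm_num)) (by norm_num)) (by norm_num)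

/-- the packed identity -/
def idM : ℕ := sumN (fun x => Nat.mul (Nat.pow 65536 x) (Nat.pow cC x)) 27

theorem one_rp : RpM 4 idM 1 := by
  intro x hx
  have h1 : ∀ x < 27, Rp 4 (Nat.pow 65536 x) ((1 : Matrix I27 I27 F5) (dec x)) := by
    intro x hx
    refine ⟨fun k => if k = x then 1 else 0, fun k => by dsimp only; split_ifs <;> omega, ?_, ?_⟩
    · simp only [ite_mul, one_mul, zero_mul, Finset.sum_ite_eq', Finset.mem_range, hx, if_true]
      rfl
    · intro k hk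
      rw [Matrix.one_apply]
      have h1 : (dec x = dec k) ↔ (k = x) := by rw [dec_eq_iff hx hk]; exact eq_comm
      simp only [h1]
      split_ifs <;> simp
  have : row idM x = Nat.pow 65536 x :=
    row_sumN (f := fun x => Nat.pow 65536 x) (fun i hi => (h1 i hi).lt (by norm_num)) hx
  rw [this]
  exact h1 x hx

theorem c_s : Nat.beq (pwd sw) sM = true := by decide +kernel
theorem c_s' : Nat.beq (pwd (dual sw)) sM' = true := by decide +kernel
theorem c_h1 : Nat.beq (pwd hw1) hM1 = true := by decide +kernel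
theorem c_h1' : Nat.beq (pwd (dual hw1)) hM1' = true := by decide +kernel
theorem c_h2 : Nat.beq (pwd hw2) hM2 = true := by decide +kernel
theorem c_h2' : Nat.beq (pwd (dual hw2)) hM2' = true := by decide +kernel
theorem c_h3 : Nat.beq (pwd hw3) hM3 = true := by decide +kernel
theorem c_h3' : Nat.beq (pwd (dual hw3)) hM3' = true := by decide +kernel
theorem c_h4 : Nat.beq (pwd hw4) hM4 = true := by decide +kernel
theorem c_h4' : Nat.beq (pwd (dual hw4)) hM4' = true := by decide +kernel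
theorem c_h5 : Nat.beq (pwd hw5) hM5 = true := by decide +kernel
theorem c_h5' : Nat.beq (pwd (dual hw5)) hM5' = true := by decide +kernel
theorem c_h6 : Nat.beq (pwd hw6) hM6 = true := by decide +kernel
theorem c_h6' : Nat.beq (pwd (dual hw6)) hM6' = true := by decide +kernel
theorem c_9 : trajChk t9 sM (nrm (rw' gw (Nat.pow 65536 9))) = true := by decide +kernel
theorem c_12 : trajChk t12 sM (nrm (rw' gw (Nat.pow 65536 12))) = true := by decide +kernel
theorem c_15 : trajChk t15 sM (nrm (rw' gw (Nat.pow 65536 15))) = true := by decide +kernel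
theorem c_18 : trajChk t18 sM' (nrm (rw' (dual gw) (Nat.pow 65536 18))) = true := by decide +kernel
theorem c_19 : trajChk t19 sM' (nrm (rw' (dual gw) (Nat.pow 65536 19))) = true := by decide +kernel
theorem c_10 : trajChk t10 sM' (nrm (rw' (dual gw) (Nat.pow 65536 10))) = true := by decide +kernel
theorem c_pow : Nat.beq (pow313 sM) idM = true := by decide +kernel
theorem c_ne : Nat.beq (fld (row sM 0) 0) 0 = true := by decide +kernel

/-- the whole check -/
def allChk : Bool :=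
  force (TT t9 t12 t15 t18 t19 t10 hM1 hM1') fun T1 => force (TT t9 t12 t15 t18 t19 t10 hM2 hM2') fun T2 =>
  force (TT t9 t12 t15 t18 t19 t10 hM3 hM3') fun T3 => force (TT t9 t12 t15 t18 t19 t10 hM4 hM4') fun T4 =>
  force (TT t9 t12 t15 t18 t19 t10 hM5 hM5') fun T5 => force (TT t9 t12 t15 t18 t19 t10 hM6 hM6') fun T6 =>
  finChk T1 T2 T3 T4 T5 T6

theorem c_all : allChk = true := by decide +kernel

/-! ### semantics of the check -/

/-- the six values at the time `j` -/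
def vj (T9 T12 T15 T18 T19 T10 H H' j : ℕ) : Fin 6 → ℕ :=
  val (vm (row T9 j) H) (vm (row T12 j) H) (vm (row T15 j) H) (vm (row T18 j) H') (vm (row T19 j) H')
    (vm (row T10 j) H')

/-- the moments -/
def mom (v : ℕ → Fin 6 → ℕ) (k : ℕ) : ℕ :=
  ∑ j ∈ Finset.range 313, x6 (v j 0) (v j 1) (v j 2) (v j 3) (v j 4) (v j 5) k

theorem TT_rp (T9 T12 T15 T18 T19 T10 H H' : ℕ) :
    Rp2 15625 (TT T9 T12 T15 T18 T19 T10 H H') (mom (vj T9 T12 T15 T18 T19 T10 H H')) := by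
  have h : ∀ j, Rp2 15625 (force (row T9 j) fun a => force (row T12 j) fun b => force (row T15 j) fun c =>
      force (row T18 j) fun d => force (row T19 j) fun e => force (row T10 j) fun g => XX H H' a b c d e g)
      (x6 (vj T9 T12 T15 T18 T19 T10 H H' j 0) (vj T9 T12 T15 T18 T19 T10 H H' j 1)
        (vj T9 T12 T15 T18 T19 T10 H H' j 2) (vj T9 T12 T15 T18 T19 T10 H H' j 3)
        (vj T9 T12 T15 T18 T19 T10 H H' j 4) (vj T9 T12 T15 T18 T19 T10 H H' j 5)) := by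
    intro j
    simp only [XX, force_eq]
    exact ten6_rp _ _ _ _ _ _
  unfold Rp2 at h ⊢
  rw [TT, sumN_eq, Finset.sum_congr rfl fun j _ => h j, Finset.sum_comm]
  exact Finset.sum_congr rfl fun k _ => by rw [mom, Finset.sum_mul]

theorem mom_lt (v : ℕ → Fin 6 → ℕ) (k : ℕ) : mom v k < 2 ^ 24 := by
  have h : mom v k ≤ ∑ j ∈ Finset.range 313, 4096 := Finset.sum_le_sum fun j _ => x6_le _ _ _ _ _ _ k
  rw [Finset.sum_const, Finset.card_range, smul_eq_mul] at h
  exact lt_of_le_of_lt h (by norm_num)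

theorem nz_blk {T : ℕ} {x : ℕ → ℕ} (h : Rp2 15625 T x) (hx : ∀ k, x k < 2 ^ 24) {u l : ℕ} (hu : u < 125) (hl : l < 125)
    (hn : nz (blk T u) l = true) : x (125 * u + l) % 5 ≠ 0 := by
  have e1 : ∀ u, Nat.pow 2 (Nat.mul 3000 u) = ((2 ^ 24) ^ 125) ^ u := by
    intro u
    have h0 : Nat.mul 3000 u = 24 * (125 * u) := by
      show 3000 * u = _
      ring
    rw [Nat.pow_eq, h0, pow_mul, pow_mul]
  have e3 : Nat.pow 2 3000 = (2 ^ 24) ^ 125 := by
    have h0 : (3000 : ℕ) = 24 * 125 := by norm_num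
    rw [Nat.pow_eq, h0, pow_mul]
  have h1 : blk T u = ∑ l ∈ Finset.range 125, x (125 * u + l) * (2 ^ 24) ^ l := by
    have e2 : T = ∑ u ∈ Finset.range 125, (∑ l ∈ Finset.range 125, x (125 * u + l) * (2 ^ 24) ^ l) *
        ((2 ^ 24) ^ 125) ^ u := by
      have h' : T = ∑ k ∈ Finset.range (125 * 125), x k * (2 ^ 24) ^ k := h
      rw [h', sum_range_mul_aux]
      refine Finset.sum_congr rfl fun a _ => ?_
      rw [Finset.sum_mul]
      refine Finset.sum_congr rfl fun k _ => ?_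
      rw [pow_add, pow_mul]
      ring
    have e4 : blk T u = T / ((2 ^ 24) ^ 125) ^ u % (2 ^ 24) ^ 125 := by
      rw [← e1, ← e3, blk]
      have e6 : Nat.shiftRight T (Nat.mul 3000 u) = T / Nat.pow 2 (Nat.mul 3000 u) := Nat.shiftRight_eq_div_pow T _
      rw [e6]
      rfl
    rw [e4]
    nth_rewrite 1 [e2]
    exact dig (b := (2 ^ 24) ^ 125) (by positivity) u 125 _ (fun u => sum_lt _ (fun l => hx _) 125) hu
  have h2 : Nat.mod (Nat.shiftRight (blk T u) (Nat.mul 24 l)) (Nat.pow 2 24) = x (125 * u + l) := by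
    have e5 : Nat.mod (Nat.shiftRight (blk T u) (Nat.mul 24 l)) (Nat.pow 2 24) = blk T u / (2 ^ 24) ^ l % 2 ^ 24 := by
      show (blk T u >>> (24 * l)) % (2 ^ 24) = _
      rw [Nat.shiftRight_eq_div_pow, pow_mul]
    rw [e5, h1]
    exact dig (b := 2 ^ 24) (by norm_num) l 125 (fun l => x (125 * u + l)) (fun l => hx _) hl
  unfold nz at hn
  rw [h2, Bool.not_eq_true', ← Bool.not_eq_true] at hn
  intro h0
  exact hn (Nat.beq_eq ▸ h0)


theorem fin_spec {T1 T2 T3 T4 T5 T6 : ℕ} {x1 x2 x3 x4 x5 x6 : ℕ → ℕ} (h1 : Rp2 15625 T1 x1) (h2 : Rp2 15625 T2 x2)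
    (h3 : Rp2 15625 T3 x3) (h4 : Rp2 15625 T4 x4) (h5 : Rp2 15625 T5 x5) (h6 : Rp2 15625 T6 x6)
    (b1 : ∀ k, x1 k < 2 ^ 24) (b2 : ∀ k, x2 k < 2 ^ 24) (b3 : ∀ k, x3 k < 2 ^ 24) (b4 : ∀ k, x4 k < 2 ^ 24)
    (b5 : ∀ k, x5 k < 2 ^ 24) (b6 : ∀ k, x6 k < 2 ^ 24) (h : finChk T1 T2 T3 T4 T5 T6 = true) {k : ℕ} (hk : k < 15625)
    (hk0 : k ≠ 0) : x1 k % 5 ≠ 0 ∨ x2 k % 5 ≠ 0 ∨ x3 k % 5 ≠ 0 ∨ x4 k % 5 ≠ 0 ∨ x5 k % 5 ≠ 0 ∨ x6 k % 5 ≠ 0 := by
  have hu : k / 125 < 125 := by omega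
  have hl : k % 125 < 125 := by omega
  have hk1 : 125 * (k / 125) + k % 125 = k := by omega
  have h0 := allLt_spec h _ hu
  simp only [force_eq] at h0
  have h0 := allLt_spec h0 _ hl
  simp only [Bool.or_eq_true, Bool.and_eq_true] at h0
  rcases h0 with h0 | h0 | h0 | h0 | h0 | h0 | h0
  · have e1 := Nat.eq_of_beq_eq_true h0.1
    have e2 := Nat.eq_of_beq_eq_true h0.2
    omega
  · have := nz_blk h1 b1 hu hl h0
    rw [hk1] at this; exact Or.inl this
  · have := nz_blk h2 b2 hu hl h0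
    rw [hk1] at this; exact Or.inr (Or.inl this)
  · have := nz_blk h3 b3 hu hl h0
    rw [hk1] at this; exact Or.inr (Or.inr (Or.inl this))
  · have := nz_blk h4 b4 hu hl h0
    rw [hk1] at this; exact Or.inr (Or.inr (Or.inr (Or.inl this)))
  · have := nz_blk h5 b5 hu hl h0
    rw [hk1] at this; exact Or.inr (Or.inr (Or.inr (Or.inr (Or.inl this))))
  · have := nz_blk h6 b6 hu hl h0
    rw [hk1] at this; exact Or.inr (Or.inr (Or.inr (Or.inr (Or.inr this))))

/-! ### the theorem -/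

theorem ok_s : okw' sw := by unfold okw'; decide
theorem ok_g : okw' gw := by unfold okw'; decide
theorem ok_1 : okw' hw1 := by unfold okw'; decide
theorem ok_2 : okw' hw2 := by unfold okw'; decide
theorem ok_3 : okw' hw3 := by unfold okw'; decide
theorem ok_4 : okw' hw4 := by unfold okw'; decide
theorem ok_5 : okw' hw5 := by unfold okw'; decide
theorem ok_6 : okw' hw6 := by unfold okw'; decide

theorem rp_of {w : List (ℕ × ℕ)} (hw : okw w) {M : ℕ} (h : Nat.beq (pwd w) M = true) : RpM 4 M (Mw w) := by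
  rw [← Nat.eq_of_beq_eq_true h]
  exact pwd_rp hw

theorem rp_s : RpM 4 sM (Mw sw) := rp_of ok_s.ok c_s
theorem rp_s' : RpM 4 sM' (Mw (dual sw)) := rp_of ok_s.dual c_s'

theorem s_pow : el sw ^ 313 = 1 := by
  have h1 := pow313_rp rp_s
  rw [Nat.eq_of_beq_eq_true c_pow] at h1
  have h2 := ext_of_rp h1 one_rp
  apply Subtype.ext
  apply Units.ext
  rw [Subgroup.coe_pow, Units.val_pow_eq_pow_val, el_mat ok_s.ok, h2]
  rfl

theorem s_ne : el sw ≠ 1 := by
  intro h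
  have h1 : Mw sw = 1 := by rw [← el_mat ok_s.ok, h]; rfl
  have h2 := ((rp_s 0 (by norm_num)).fld (by norm_num) (by norm_num : 0 < 27)).2
  rw [h1, Nat.eq_of_beq_eq_true c_ne, Matrix.one_apply_eq] at h2
  exact absurd h2 (by decide)

theorem s_order : orderOf (el sw) = 313 := by
  have : Fact (Nat.Prime 313) := ⟨by norm_num⟩
  exact orderOf_eq_prime s_pow s_ne

/-- the matrix of `g s^j h` -/
theorem mat_gsh {h : List (ℕ × ℕ)} (hh : okw' h) (j : ℕ) :
    ((el gw * el sw ^ j * el h).1 : Matrix I27 I27 F5) = Mw gw * Mw sw ^ j * Mw h := by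
  rw [Subgroup.coe_mul, Subgroup.coe_mul, Subgroup.coe_pow, Units.val_mul, Units.val_mul, Units.val_pow_eq_pow_val,
    el_mat ok_g.ok, el_mat ok_s.ok, el_mat hh.ok]

theorem mat_inv {h : List (ℕ × ℕ)} (hh : okw' h) (j : ℕ) :
    (((el gw * el sw ^ j * el h)⁻¹).1 : Matrix I27 I27 F5) = (Mw (dual gw) * Mw (dual sw) ^ j * Mw (dual h))ᵀ := by
  rw [mul_inv_rev, mul_inv_rev, ← inv_pow, Subgroup.coe_mul, Subgroup.coe_mul, Subgroup.coe_pow, Units.val_mul,
    Units.val_mul, Units.val_pow_eq_pow_val, el_inv ok_g, el_inv ok_s, el_inv hh, Matrix.transpose_mul,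
    Matrix.transpose_mul, Matrix.transpose_pow]

theorem row_mul {m n : ℕ} {A B : Matrix I27 I27 F5} (x : I27) (φ : I27 → F5) (h : Rp m n φ) (e : φ = (A * B) x) :
    Rp m n ((A * B) x) := e ▸ h

/-- a row of `g s^j h` -/
theorem row_gsh {T S v0 H : ℕ} {G A B : Matrix I27 I27 F5} {x : I27} (h0 : Rp 4 v0 (G x)) (hS : RpM 4 S A)
    (hH : RpM 4 H B) (h : trajChk T S v0 = true) {j : ℕ} (hj : j < 313) :
    Rp (108 * 4) (vm (row T j) H) ((G * A ^ j * B) x) := by
  have h1 := (traj h0 hS h j hj).vm (by norm_num) hH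
  have e : (G x ᵥ* A ^ j) ᵥ* B = (G * A ^ j * B) x := by
    funext y
    rfl
  rwa [e] at h1

theorem vals_eq {h : List (ℕ × ℕ)} (hh : okw' h) {H H' : ℕ} (h1 : RpM 4 H (Mw h)) (h2 : RpM 4 H' (Mw (dual h)))
    {j : ℕ} (hj : j < 313) (i : Fin 6) :
    ((vj t9 t12 t15 t18 t19 t10 H H' j i : ℕ) : F5) =
      H163.E65.ff ((el gw * el sw ^ j * el h).1 : Matrix I27 I27 F5)
        (((el gw * el sw ^ j * el h)⁻¹).1 : Matrix I27 I27 F5) i := by
  rw [mat_gsh hh, mat_inv hh]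
  exact val_cast (b := 108 * 4) (by norm_num) (row_gsh (row_rp ok_g.ok (by norm_num)) rp_s h1 c_9 hj)
    (row_gsh (row_rp ok_g.ok (by norm_num)) rp_s h1 c_12 hj) (row_gsh (row_rp ok_g.ok (by norm_num)) rp_s h1 c_15 hj)
    (row_gsh (row_rp ok_g.dual (by norm_num)) rp_s' h2 c_18 hj)
    (row_gsh (row_rp ok_g.dual (by norm_num)) rp_s' h2 c_19 hj)
    (row_gsh (row_rp ok_g.dual (by norm_num)) rp_s' h2 c_10 hj) i

theorem mom_ne {h : List (ℕ × ℕ)} (hh : okw' h) {H H' : ℕ} (h1 : RpM 4 H (Mw h)) (h2 : RpM 4 H' (Mw (dual h)))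
    {a : Fin 6 → Fin 5} (hm : mom (vj t9 t12 t15 t18 t19 t10 H H') (idx a) % 5 ≠ 0) :
    ∑ j ∈ Finset.range 313, ∏ i, H163.E65.ff ((el gw * el sw ^ j * el h).1 : Matrix I27 I27 F5)
        (((el gw * el sw ^ j * el h)⁻¹).1 : Matrix I27 I27 F5) i ^ (a i : ℕ) ≠ 0 := by
  have e : ((mom (vj t9 t12 t15 t18 t19 t10 H H') (idx a) : ℕ) : F5) =
      ∑ j ∈ Finset.range 313, ∏ i, H163.E65.ff ((el gw * el sw ^ j * el h).1 : Matrix I27 I27 F5)
        (((el gw * el sw ^ j * el h)⁻¹).1 : Matrix I27 I27 F5) i ^ (a i : ℕ) := by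
    rw [mom, Nat.cast_sum]
    refine Finset.sum_congr rfl fun j hj => ?_
    rw [x6_idx]
    exact Finset.prod_congr rfl fun i _ => by rw [vals_eq hh h1 h2 (Finset.mem_range.1 hj) i]
  rw [← e]
  intro h0
  rw [ZMod.natCast_eq_zero_iff] at h0
  exact hm (Nat.mod_eq_zero_of_dvd h0)

theorem cert_aux (a : Fin 6 → Fin 5) (ha : a ≠ 0) : ∃ g h : Zgrp F5,
    ∑ j ∈ Finset.range 313, ∏ i, H163.E65.ff (g * el sw ^ j * h).1.1 ((g * el sw ^ j * h)⁻¹).1.1 i ^ (a i : ℕ) ≠ 0 := by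
  have hc := c_all
  simp only [allChk, force_eq] at hc
  have h := fin_spec (TT_rp t9 t12 t15 t18 t19 t10 hM1 hM1') (TT_rp t9 t12 t15 t18 t19 t10 hM2 hM2')
    (TT_rp t9 t12 t15 t18 t19 t10 hM3 hM3') (TT_rp t9 t12 t15 t18 t19 t10 hM4 hM4')
    (TT_rp t9 t12 t15 t18 t19 t10 hM5 hM5') (TT_rp t9 t12 t15 t18 t19 t10 hM6 hM6')
    (mom_lt _) (mom_lt _) (mom_lt _) (mom_lt _) (mom_lt _) (mom_lt _) hc (idx_lt a) (idx_ne ha)
  rcases h with h | h | h | h | h | h
  · exact ⟨el gw, el hw1, mom_ne ok_1 (rp_of ok_1.ok c_h1) (rp_of ok_1.dual c_h1') h⟩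
  · exact ⟨el gw, el hw2, mom_ne ok_2 (rp_of ok_2.ok c_h2) (rp_of ok_2.dual c_h2') h⟩
  · exact ⟨el gw, el hw3, mom_ne ok_3 (rp_of ok_3.ok c_h3) (rp_of ok_3.dual c_h3') h⟩
  · exact ⟨el gw, el hw4, mom_ne ok_4 (rp_of ok_4.ok c_h4) (rp_of ok_4.dual c_h4') h⟩
  · exact ⟨el gw, el hw5, mom_ne ok_5 (rp_of ok_5.ok c_h5) (rp_of ok_5.dual c_h5') h⟩
  · exact ⟨el gw, el hw6, mom_ne ok_6 (rp_of ok_6.ok c_h6) (rp_of ok_6.dual c_h6') h⟩

/-- **Task CERT of S3650.** -/
theorem cert : ∃ s : Zgrp (ZMod 5), orderOf s = 313 ∧ ∀ a : Fin 6 → Fin 5, a ≠ 0 → ∃ g h : Zgrp (ZMod 5),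
    ∑ j ∈ Finset.range 313, ∏ i, H163.E65.ff (g * s ^ j * h).1.1 ((g * s ^ j * h)⁻¹).1.1 i ^ (a i : ℕ) ≠ 0 :=
  ⟨el sw, s_order, cert_aux⟩

end Cfsg.Agent.H138.E65
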