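import Mathlib
import Cfsg.Prelude.Def_E6

/-!
# A family of isometries of the cubic form `T` (task SL3 of S3650)

For `v` in the group ring `K[C₃]` of norm 1 the map `(x, Y) ↦ (v⁻² x, v Y)` on `K[C₃] ⊕ sl₃(K)[C₃]` is an isometry of
`det a + det b + det c - tr (a b c)`.
-/

set_option autoImplicit false

namespace Cfsg.Agent.H138.E65

open Matrix

variable {K : Type*} [Field K]

/-- the cubic form -/
def T3 (a b c : Matrix (Fin 3) (Fin 3) K) : K := a.det + b.det + c.det - (a * b * c).trace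

theorem det_split (x : K) (A : Matrix (Fin 3) (Fin 3) K) (hA : A.trace = 0) :
    6 * (x • 1 + A).det = 6 * x ^ 3 - 3 * x * (A * A).trace + 2 * (A * A * A).trace := by
  have h : A 2 2 = - A 0 0 - A 1 1 := by
    rw [Matrix.trace_fin_three] at hA
    linear_combination hA
  rw [Matrix.det_fin_three, Matrix.trace_fin_three, Matrix.trace_fin_three]
  simp only [Matrix.mul_apply, Fin.sum_univ_three, Matrix.add_apply, Matrix.smul_apply, Matrix.one_apply, smul_eq_mul,
    h]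
  simp only [Fin.isValue, if_true, show (0 : Fin 3) ≠ 1 by decide, show (0 : Fin 3) ≠ 2 by decide,
    show (1 : Fin 3) ≠ 0 by decide, show (1 : Fin 3) ≠ 2 by decide, show (2 : Fin 3) ≠ 0 by decide,
    show (2 : Fin 3) ≠ 1 by decide, if_false, mul_one, mul_zero, zero_add]
  ring

theorem tr_split (x0 x1 x2 : K) (A B C : Matrix (Fin 3) (Fin 3) K) (hA : A.trace = 0) (hB : B.trace = 0)
    (hC : C.trace = 0) : ((x0 • 1 + A) * (x1 • 1 + B) * (x2 • 1 + C)).trace =
      3 * x0 * x1 * x2 + x0 * (B * C).trace + x1 * (A * C).trace + x2 * (A * B).trace + (A * B * C).trace := by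
  simp only [add_mul, mul_add, smul_mul_assoc, mul_smul_comm, one_mul, mul_one, Matrix.trace_add, Matrix.trace_smul,
    smul_eq_mul, hA, hB, hC, Matrix.trace_one, Fintype.card_fin, mul_zero, add_zero, zero_add]
  push_cast
  ring

/-- the cubic form in terms of the traces and the traceless parts -/
theorem T3_split (x0 x1 x2 : K) (A B C : Matrix (Fin 3) (Fin 3) K) (hA : A.trace = 0) (hB : B.trace = 0)
    (hC : C.trace = 0) : 6 * T3 (x0 • 1 + A) (x1 • 1 + B) (x2 • 1 + C) =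
      6 * (x0 ^ 3 + x1 ^ 3 + x2 ^ 3 - 3 * x0 * x1 * x2) - 3 * (x0 * ((A * A).trace + 2 * (B * C).trace) +
        x1 * ((B * B).trace + 2 * (A * C).trace) + x2 * ((C * C).trace + 2 * (A * B).trace)) +
      2 * ((A * A * A).trace + (B * B * B).trace + (C * C * C).trace - 3 * (A * B * C).trace) := by
  have h1 := det_split x0 A hA
  have h2 := det_split x1 B hB
  have h3 := det_split x2 C hC
  have h4 := tr_split x0 x1 x2 A B C hA hB hC
  unfold T3
  linear_combination h1 + h2 + h3 - 6 * h4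

theorem cyc (P Q R : Matrix (Fin 3) (Fin 3) K) : (P * Q * R).trace = (R * P * Q).trace := Matrix.trace_mul_cycle P Q R

/-- the quadratic part -/
theorem quad (v0 v1 v2 : K) (A B C : Matrix (Fin 3) (Fin 3) K) :
    ((v0 • A + v1 • C + v2 • B) * (v0 • A + v1 • C + v2 • B)).trace +
      2 * ((v0 • B + v1 • A + v2 • C) * (v0 • C + v1 • B + v2 • A)).trace =
    (v0 ^ 2 + 2 * v1 * v2) * ((A * A).trace + 2 * (B * C).trace) +
      (2 * v0 * v1 + v2 ^ 2) * ((B * B).trace + 2 * (A * C).trace) +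
      (v1 ^ 2 + 2 * v0 * v2) * ((C * C).trace + 2 * (A * B).trace) := by
  simp only [add_mul, mul_add, smul_mul_assoc, mul_smul_comm, Matrix.trace_add, Matrix.trace_smul, smul_eq_mul]
  rw [Matrix.trace_mul_comm B A, Matrix.trace_mul_comm C A, Matrix.trace_mul_comm C B]
  ring

/-- the cubic part -/
theorem cub (v0 v1 v2 : K) (A B C : Matrix (Fin 3) (Fin 3) K) :
    ((v0 • A + v1 • C + v2 • B) * (v0 • A + v1 • C + v2 • B) * (v0 • A + v1 • C + v2 • B)).trace +
      ((v0 • B + v1 • A + v2 • C) * (v0 • B + v1 • A + v2 • C) * (v0 • B + v1 • A + v2 • C)).trace +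
      ((v0 • C + v1 • B + v2 • A) * (v0 • C + v1 • B + v2 • A) * (v0 • C + v1 • B + v2 • A)).trace -
      3 * ((v0 • A + v1 • C + v2 • B) * (v0 • B + v1 • A + v2 • C) * (v0 • C + v1 • B + v2 • A)).trace =
    (v0 ^ 3 + v1 ^ 3 + v2 ^ 3 - 3 * v0 * v1 * v2) *
      ((A * A * A).trace + (B * B * B).trace + (C * C * C).trace - 3 * (A * B * C).trace) := by
  simp only [add_mul, mul_add, smul_mul_assoc, mul_smul_comm, Matrix.trace_add, Matrix.trace_smul, smul_eq_mul]
  have e1 : (A * B * A).trace = (A * A * B).trace := cyc A B A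
  have e2 : (B * A * A).trace = (A * A * B).trace := (cyc B A A).trans (cyc A B A)
  have e3 : (A * C * A).trace = (A * A * C).trace := cyc A C A
  have e4 : (C * A * A).trace = (A * A * C).trace := (cyc C A A).trans (cyc A C A)
  have e5 : (B * A * B).trace = (A * B * B).trace := (cyc A B B).symm ▸ rfl
  have e6 : (B * B * A).trace = (A * B * B).trace := cyc B B A
  have e7 : (B * C * B).trace = (B * B * C).trace := cyc B C B
  have e8 : (C * B * B).trace = (B * B * C).trace := (cyc C B B).trans (cyc B C B)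
  have e9 : (C * A * C).trace = (A * C * C).trace := (cyc A C C).symm ▸ rfl
  have e10 : (C * C * A).trace = (A * C * C).trace := cyc C C A
  have e11 : (C * B * C).trace = (B * C * C).trace := (cyc B C C).symm ▸ rfl
  have e12 : (C * C * B).trace = (B * C * C).trace := cyc C C B
  have e13 : (B * C * A).trace = (A * B * C).trace := cyc B C A
  have e14 : (C * A * B).trace = (A * B * C).trace := (cyc A B C).symm ▸ rfl
  have e15 : (C * B * A).trace = (A * C * B).trace := cyc C B A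
  have e16 : (B * A * C).trace = (A * C * B).trace := (cyc A C B).symm ▸ rfl
  rw [e1, e2, e3, e4, e5, e6, e7, e8, e9, e10, e11, e12, e13, e14, e15, e16]
  ring

/-- **The isometry.** `v` of norm 1, `w = v⁻²` in the group ring of `C₃`: `(x, Y) ↦ (w x, v Y)` preserves the form. -/
theorem T_rho (v0 v1 v2 w0 w1 w2 x0 x1 x2 : K) (A B C : Matrix (Fin 3) (Fin 3) K) (hA : A.trace = 0)
    (hB : B.trace = 0) (hC : C.trace = 0) (h6 : (6 : K) ≠ 0)
    (hv : v0 ^ 3 + v1 ^ 3 + v2 ^ 3 - 3 * v0 * v1 * v2 = 1) (hw : w0 ^ 3 + w1 ^ 3 + w2 ^ 3 - 3 * w0 * w1 * w2 = 1)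
    (h0 : w0 * (v0 ^ 2 + 2 * v1 * v2) + w1 * (v1 ^ 2 + 2 * v0 * v2) + w2 * (2 * v0 * v1 + v2 ^ 2) = 1)
    (h1 : w0 * (2 * v0 * v1 + v2 ^ 2) + w1 * (v0 ^ 2 + 2 * v1 * v2) + w2 * (v1 ^ 2 + 2 * v0 * v2) = 0)
    (h2 : w0 * (v1 ^ 2 + 2 * v0 * v2) + w1 * (2 * v0 * v1 + v2 ^ 2) + w2 * (v0 ^ 2 + 2 * v1 * v2) = 0) :
    T3 ((w0 * x0 + w1 * x2 + w2 * x1) • 1 + (v0 • A + v1 • C + v2 • B))
      ((w0 * x1 + w1 * x0 + w2 * x2) • 1 + (v0 • B + v1 • A + v2 • C))
      ((w0 * x2 + w1 * x1 + w2 * x0) • 1 + (v0 • C + v1 • B + v2 • A)) = T3 (x0 • 1 + A) (x1 • 1 + B) (x2 • 1 + C) := by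
  have tA : (v0 • A + v1 • C + v2 • B).trace = 0 := by
    simp only [Matrix.trace_add, Matrix.trace_smul, hA, hB, hC, smul_zero, add_zero]
  have tB : (v0 • B + v1 • A + v2 • C).trace = 0 := by
    simp only [Matrix.trace_add, Matrix.trace_smul, hA, hB, hC, smul_zero, add_zero]
  have tC : (v0 • C + v1 • B + v2 • A).trace = 0 := by
    simp only [Matrix.trace_add, Matrix.trace_smul, hA, hB, hC, smul_zero, add_zero]
  have H1 := T3_split (w0 * x0 + w1 * x2 + w2 * x1) (w0 * x1 + w1 * x0 + w2 * x2) (w0 * x2 + w1 * x1 + w2 * x0)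
    _ _ _ tA tB tC
  have H2 := T3_split x0 x1 x2 A B C hA hB hC
  have Q0 := quad v0 v1 v2 A B C
  have Q1 := quad v0 v1 v2 B C A
  have Q2 := quad v0 v1 v2 C A B
  have Q3 := cub v0 v1 v2 A B C
  rw [Matrix.trace_mul_comm (v0 • C + v1 • B + v2 • A) (v0 • A + v1 • C + v2 • B), Matrix.trace_mul_comm C A,
    Matrix.trace_mul_comm B A] at Q1
  rw [Matrix.trace_mul_comm C B] at Q2
  rw [Matrix.trace_mul_comm C A] at Q2
  apply mul_left_cancel₀ h6
  rw [H1, H2]
  linear_combination (-3) * (w0 * x0 + w1 * x2 + w2 * x1) * Q0 + (-3) * (w0 * x1 + w1 * x0 + w2 * x2) * Q1 +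
    (-3) * (w0 * x2 + w1 * x1 + w2 * x0) * Q2 + 2 * Q3 +
    6 * (x0 ^ 3 + x1 ^ 3 + x2 ^ 3 - 3 * x0 * x1 * x2) * hw +
    2 * ((A * A * A).trace + (B * B * B).trace + (C * C * C).trace - 3 * (A * B * C).trace) * hv -
    3 * (x0 * ((A * A).trace + 2 * (B * C).trace) + x1 * ((B * B).trace + 2 * (A * C).trace) +
      x2 * ((C * C).trace + 2 * (A * B).trace)) * h0 -
    3 * (x0 * ((B * B).trace + 2 * (A * C).trace) + x1 * ((C * C).trace + 2 * (A * B).trace) +
      x2 * ((A * A).trace + 2 * (B * C).trace)) * h1 -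
    3 * (x0 * ((C * C).trace + 2 * (A * B).trace) + x1 * ((A * A).trace + 2 * (B * C).trace) +
      x2 * ((B * B).trace + 2 * (A * C).trace)) * h2

end Cfsg.Agent.H138.E65
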