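import Cfsg.Agent.H138.E65.Pack

/-!
# Packed moments (task CERT of S3650)
-/

set_option autoImplicit false

namespace Cfsg.Agent.H138.E65

open Cfsg.Lie Cfsg.Agent.ChevalleyStructure.E6Min.Tables Cfsg.Agent.ChevalleyStructure.E6Min.Basic
open scoped Matrix

/-! ### forcing the evaluation -/

/-- `k v`, but the kernel evaluates `v` first -/
def force {α : Type} (v : ℕ) (k : ℕ → α) : α := Nat.rec (k 0) (fun n _ => k (Nat.succ n)) v

theorem force_eq {α : Type} (v : ℕ) (k : ℕ → α) : force v k = k v := by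
  cases v <;> rfl

/-! ### trajectories -/

/-- the check of a table of vectors: `row T (j + 1)` is `row T j` times `S` -/
def trajChk (T S v0 : ℕ) : Bool :=
  Nat.beq (row T 0) v0 && allLt 313 (fun j => force (row T j) fun v => Nat.beq (nrm (vm v S)) (row T (Nat.succ j)))

theorem traj {T S v0 : ℕ} {A : Matrix I27 I27 F5} {φ : I27 → F5} (h0 : Rp 4 v0 φ) (hS : RpM 4 S A)
    (h : trajChk T S v0 = true) : ∀ j < 313, Rp 4 (row T j) (φ ᵥ* A ^ j) := by
  unfold trajChk at h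
  rw [Bool.and_eq_true] at h
  intro j
  induction j with
  | zero =>
    intro _
    rw [pow_zero, Matrix.vecMul_one, Nat.eq_of_beq_eq_true h.1]
    exact h0
  | succ j ih =>
    intro hj
    have h1 := ih (by omega)
    have h2 := allLt_spec h.2 j (by omega)
    rw [force_eq] at h2
    have h3 := Nat.eq_of_beq_eq_true h2
    have h4 := (h1.vm (by norm_num) hS).nrm (by norm_num)
    rw [h3, Matrix.vecMul_vecMul, ← pow_succ] at h4
    exact h4

/-! ### the tensor product -/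

/-- `x` lists the fields (24 bits) of `X` -/
def Rp2 (n X : ℕ) (x : ℕ → ℕ) : Prop := X = ∑ k ∈ Finset.range n, x k * (2 ^ 24) ^ k

/-- multiplication by `(1, f, f², f³, f⁴)` -/
def ten (m f X : ℕ) : ℕ :=
  sumN (fun a => Nat.mul (Nat.mul (Nat.mod (Nat.pow f a) 5) X) (Nat.pow (Nat.pow 2 24) (Nat.mul m a))) 5

theorem sum_range_mul_aux (m n : ℕ) (g : ℕ → ℕ) :
    ∑ k ∈ Finset.range (m * n), g k = ∑ a ∈ Finset.range n, ∑ k ∈ Finset.range m, g (m * a + k) := by
  induction n with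
  | zero => simp
  | succ n ih =>
    rw [Nat.mul_succ, Finset.sum_range_add, ih, Finset.sum_range_succ]

theorem ten_rp {m X : ℕ} {x : ℕ → ℕ} (h : Rp2 m X x) (f : ℕ) (hm : 0 < m) :
    Rp2 (m * 5) (ten m f X) (fun k => (f ^ (k / m) % 5) * x (k % m)) := by
  unfold Rp2 at *
  rw [sum_range_mul_aux, ten, sumN_eq]
  refine Finset.sum_congr rfl fun a _ => ?_
  show (f ^ a % 5) * X * (2 ^ 24) ^ (m * a) = _
  rw [h, Finset.mul_sum, Finset.sum_mul]
  refine Finset.sum_congr rfl fun k hk => ?_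
  have hk := Finset.mem_range.1 hk
  have h1 : (m * a + k) / m = a := by
    rw [Nat.mul_add_div hm, Nat.div_eq_of_lt hk, add_zero]
  have h2 : (m * a + k) % m = k := by
    rw [Nat.mul_add_mod, Nat.mod_eq_of_lt hk]
  show _ = (f ^ ((m * a + k) / m) % 5) * x ((m * a + k) % m) * _
  rw [h1, h2, pow_add]
  ring

/-- the six values -/
def ten6 (f0 f1 f2 f3 f4 f5 : ℕ) : ℕ :=
  force (ten 1 f0 1) fun x => force (ten 5 f1 x) fun x => force (ten 25 f2 x) fun x =>
    force (ten 125 f3 x) fun x => force (ten 625 f4 x) fun x => ten 3125 f5 x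

/-- the fields of `ten6` -/
def x6 (f0 f1 f2 f3 f4 f5 k : ℕ) : ℕ :=
  (f5 ^ (k / 3125) % 5) * ((f4 ^ (k % 3125 / 625) % 5) * ((f3 ^ (k % 3125 % 625 / 125) % 5) *
    ((f2 ^ (k % 3125 % 625 % 125 / 25) % 5) * ((f1 ^ (k % 3125 % 625 % 125 % 25 / 5) % 5) *
      ((f0 ^ (k % 3125 % 625 % 125 % 25 % 5 / 1) % 5) * 1)))))

theorem ten6_rp (f0 f1 f2 f3 f4 f5 : ℕ) : Rp2 15625 (ten6 f0 f1 f2 f3 f4 f5) (x6 f0 f1 f2 f3 f4 f5) := by
  have h0 : Rp2 1 1 (fun _ => 1) := by simp [Rp2]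
  have h1 := ten_rp h0 f0 (by norm_num)
  have h2 := ten_rp h1 f1 (by norm_num)
  have h3 := ten_rp h2 f2 (by norm_num)
  have h4 := ten_rp h3 f3 (by norm_num)
  have h5 := ten_rp h4 f4 (by norm_num)
  have h6 := ten_rp h5 f5 (by norm_num)
  simp only [ten6, force_eq]
  exact h6

theorem m5_le (n : ℕ) : n % 5 ≤ 4 := Nat.le_of_lt_succ (Nat.mod_lt n (by norm_num))

theorem x6_le (f0 f1 f2 f3 f4 f5 k : ℕ) : x6 f0 f1 f2 f3 f4 f5 k ≤ 4096 := by
  unfold x6
  have := Nat.mul_le_mul (m5_le (f5 ^ (k / 3125))) (Nat.mul_le_mul (m5_le (f4 ^ (k % 3125 / 625)))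
    (Nat.mul_le_mul (m5_le (f3 ^ (k % 3125 % 625 / 125))) (Nat.mul_le_mul (m5_le (f2 ^ (k % 3125 % 625 % 125 / 25)))
      (Nat.mul_le_mul (m5_le (f1 ^ (k % 3125 % 625 % 125 % 25 / 5)))
        (Nat.mul_le_mul (m5_le (f0 ^ (k % 3125 % 625 % 125 % 25 % 5 / 1))) (le_refl 1))))))
  exact this.trans (by norm_num)

/-- the index of an exponent -/
def idx (a : Fin 6 → Fin 5) : ℕ := a 0 + 5 * a 1 + 25 * a 2 + 125 * a 3 + 625 * a 4 + 3125 * a 5

theorem idx_lt (a : Fin 6 → Fin 5) : idx a < 15625 := by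
  have h0 := (a 0).2
  have h1 := (a 1).2
  have h2 := (a 2).2
  have h3 := (a 3).2
  have h4 := (a 4).2
  have h5 := (a 5).2
  unfold idx
  omega

theorem idx_ne {a : Fin 6 → Fin 5} (h : a ≠ 0) : idx a ≠ 0 := by
  intro h1
  apply h
  unfold idx at h1
  funext i
  apply Fin.ext
  fin_cases i
  · show (a 0 : ℕ) = 0; omega
  · show (a 1 : ℕ) = 0; omega
  · show (a 2 : ℕ) = 0; omega
  · show (a 3 : ℕ) = 0; omega
  · show (a 4 : ℕ) = 0; omega
  · show (a 5 : ℕ) = 0; omega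

theorem x6_idx (f : Fin 6 → ℕ) (a : Fin 6 → Fin 5) :
    ((x6 (f 0) (f 1) (f 2) (f 3) (f 4) (f 5) (idx a) : ℕ) : F5) = ∏ i, (f i : F5) ^ (a i : ℕ) := by
  have h0 := (a 0).2
  have h1 := (a 1).2
  have h2 := (a 2).2
  have h3 := (a 3).2
  have h4 := (a 4).2
  have h5 := (a 5).2
  have e5 : idx a / 3125 = a 5 := by unfold idx; omega
  have e4 : idx a % 3125 / 625 = a 4 := by unfold idx; omega
  have e3 : idx a % 3125 % 625 / 125 = a 3 := by unfold idx; omega
  have e2 : idx a % 3125 % 625 % 125 / 25 = a 2 := by unfold idx; omega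
  have e1 : idx a % 3125 % 625 % 125 % 25 / 5 = a 1 := by unfold idx; omega
  have e0 : idx a % 3125 % 625 % 125 % 25 % 5 / 1 = a 0 := by unfold idx; omega
  rw [x6, e5, e4, e3, e2, e1, e0]
  simp only [Nat.cast_mul, cast_mod5, Nat.cast_pow, mul_one, Fin.prod_univ_six]
  ring

/-! ### the fundamental functions -/

/-- the six values of one element, from the rows 9, 12, 15 of the matrix and 18, 19, 10 of the dual matrix -/
def val (a9 a12 a15 d18 d19 d10 : ℕ) : Fin 6 → ℕ := ![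
  Nat.mod (fld d18 18) 5,
  Nat.mod (Nat.mul (sumN (fun x => Nat.mul (s5 71 x) (Nat.mul (fld a9 x) (fld d10 (srN 71 x)))) 27) (s5 71 9)) 5,
  Nat.mod (Nat.add (Nat.mul (fld d18 18) (fld d19 19)) (Nat.mul 4 (Nat.mul (fld d19 18) (fld d18 19)))) 5,
  Nat.mod (Nat.add (Nat.add
    (Nat.mul (fld a9 9) (Nat.add (Nat.mul (fld a12 12) (fld a15 15)) (Nat.mul 4 (Nat.mul (fld a12 15) (fld a15 12)))))
    (Nat.mul 4 (Nat.mul (fld a9 12)
      (Nat.add (Nat.mul (fld a12 9) (fld a15 15)) (Nat.mul 4 (Nat.mul (fld a12 15) (fld a15 9)))))))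
    (Nat.mul (fld a9 15) (Nat.add (Nat.mul (fld a12 9) (fld a15 12)) (Nat.mul 4 (Nat.mul (fld a12 12) (fld a15 9)))))) 5,
  Nat.mod (Nat.add (Nat.mul (fld a9 9) (fld a12 12)) (Nat.mul 4 (Nat.mul (fld a9 12) (fld a12 9)))) 5,
  Nat.mod (fld a9 9) 5]

theorem four_eq : (4 : F5) = -1 := by decide

theorem val_cast {b a9 a12 a15 d18 d19 d10 : ℕ} (hb : b < 65536) {P D : Matrix I27 I27 F5}
    (h9 : Rp b a9 (P (dec 9))) (h12 : Rp b a12 (P (dec 12))) (h15 : Rp b a15 (P (dec 15)))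
    (k18 : Rp b d18 (D (dec 18))) (k19 : Rp b d19 (D (dec 19))) (k10 : Rp b d10 (D (dec 10))) (i : Fin 6) :
    ((val a9 a12 a15 d18 d19 d10 i : ℕ) : F5) = H163.E65.ff P Dᵀ i := by
  have hs : ∀ x < 27, srN 71 x < 27 := fun x hx => srN_lt (by norm_num) hx
  have e10 : sr 71 (dec 9) = dec 10 := by decide +kernel
  have c1 : ∀ m n : ℕ, ((Nat.mul m n : ℕ) : F5) = m * n := fun m n => Nat.cast_mul m n
  have c2 : ∀ m n : ℕ, ((Nat.add m n : ℕ) : F5) = m + n := fun m n => Nat.cast_add m n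
  have c3 : ∀ m : ℕ, ((Nat.mod m 5 : ℕ) : F5) = m := fun m => cast_mod5 m
  have c4 : ((4 : ℕ) : F5) = -1 := by decide
  have q := fun {c v : ℕ} {φ : I27 → F5} (h : Rp c v φ) (hc : c < 65536) {i : ℕ} (hi : i < 27) => (h.fld hc hi).2
  fin_cases i
  · show ((Nat.mod (fld d18 18) 5 : ℕ) : F5) = D (dec 18) (dec 18)
    rw [c3, q k18 hb (by norm_num)]
  · show ((Nat.mod (Nat.mul (sumN (fun x => Nat.mul (s5 71 x) (Nat.mul (fld a9 x) (fld d10 (srN 71 x)))) 27) (s5 71 9)) 5 : ℕ)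
      : F5) = ∑ x : I27, (sg 71 (dec 9) : F5) * (sg 71 x : F5) * P (dec 9) x * D (sr 71 (dec 9)) (sr 71 x)
    rw [c3, c1, sumN_eq, Nat.cast_sum, sum_I27, Finset.sum_mul, e10]
    refine Finset.sum_congr rfl fun x hx => ?_
    have hx := Finset.mem_range.1 hx
    rw [c1, c1, q h9 hb hx, q k10 hb (hs x hx), s5_cast, s5_cast]
    have e1 : sg 71 (dec 9) = sgN 71 9 := by unfold sg; rw [code_dec (by norm_num)]
    have e2 : sg 71 (dec x) = sgN 71 x := by unfold sg; rw [code_dec hx]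
    have e3 : sr 71 (dec x) = dec (srN 71 x) := by unfold sr; rw [code_dec hx]
    rw [e1, e2, e3]
    ring
  · show ((Nat.mod (Nat.add (Nat.mul (fld d18 18) (fld d19 19)) (Nat.mul 4 (Nat.mul (fld d19 18) (fld d18 19)))) 5 : ℕ) : F5)
      = D (dec 18) (dec 18) * D (dec 19) (dec 19) - D (dec 19) (dec 18) * D (dec 18) (dec 19)
    rw [c3, c2, c1, c1, c1, c4, q k18 hb (by norm_num), q k18 hb (by norm_num), q k19 hb (by norm_num),
      q k19 hb (by norm_num)]
    ring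
  · show ((Nat.mod (Nat.add (Nat.add
      (Nat.mul (fld a9 9) (Nat.add (Nat.mul (fld a12 12) (fld a15 15)) (Nat.mul 4 (Nat.mul (fld a12 15) (fld a15 12)))))
      (Nat.mul 4 (Nat.mul (fld a9 12)
        (Nat.add (Nat.mul (fld a12 9) (fld a15 15)) (Nat.mul 4 (Nat.mul (fld a12 15) (fld a15 9)))))))
      (Nat.mul (fld a9 15) (Nat.add (Nat.mul (fld a12 9) (fld a15 12)) (Nat.mul 4 (Nat.mul (fld a12 12) (fld a15 9)))))) 5
        : ℕ) : F5) = (P.submatrix ![dec 9, dec 12, dec 15] ![dec 9, dec 12, dec 15]).det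
    rw [Matrix.det_fin_three, c3]
    simp only [c2, c1, c4]
    rw [q h9 hb (by norm_num), q h9 hb (by norm_num), q h9 hb (by norm_num), q h12 hb (by norm_num),
      q h12 hb (by norm_num), q h12 hb (by norm_num), q h15 hb (by norm_num), q h15 hb (by norm_num),
      q h15 hb (by norm_num)]
    simp only [Matrix.submatrix_apply]
    show _ = P (dec 9) (dec 9) * P (dec 12) (dec 12) * P (dec 15) (dec 15)
      - P (dec 9) (dec 9) * P (dec 12) (dec 15) * P (dec 15) (dec 12)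
      - P (dec 9) (dec 12) * P (dec 12) (dec 9) * P (dec 15) (dec 15)
      + P (dec 9) (dec 12) * P (dec 12) (dec 15) * P (dec 15) (dec 9)
      + P (dec 9) (dec 15) * P (dec 12) (dec 9) * P (dec 15) (dec 12)
      - P (dec 9) (dec 15) * P (dec 12) (dec 12) * P (dec 15) (dec 9)
    ring
  · show ((Nat.mod (Nat.add (Nat.mul (fld a9 9) (fld a12 12)) (Nat.mul 4 (Nat.mul (fld a9 12) (fld a12 9)))) 5 : ℕ) : F5)
      = P (dec 9) (dec 9) * P (dec 12) (dec 12) - P (dec 9) (dec 12) * P (dec 12) (dec 9)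
    rw [c3, c2, c1, c1, c1, c4, q h9 hb (by norm_num), q h9 hb (by norm_num), q h12 hb (by norm_num),
      q h12 hb (by norm_num)]
    ring
  · show ((Nat.mod (fld a9 9) 5 : ℕ) : F5) = P (dec 9) (dec 9)
    rw [c3, q h9 hb (by norm_num)]

/-! ### the total moments -/

/-- the packed powers of the six values of one element -/
def XX (H H' a b c d e g : ℕ) : ℕ :=
  force (vm a H) fun a9 => force (vm b H) fun a12 => force (vm c H) fun a15 =>
    force (vm d H') fun d18 => force (vm e H') fun d19 => force (vm g H') fun d10 =>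
      force (val a9 a12 a15 d18 d19 d10 0) fun f0 => force (val a9 a12 a15 d18 d19 d10 1) fun f1 =>
        force (val a9 a12 a15 d18 d19 d10 2) fun f2 => force (val a9 a12 a15 d18 d19 d10 3) fun f3 =>
          force (val a9 a12 a15 d18 d19 d10 4) fun f4 => force (val a9 a12 a15 d18 d19 d10 5) fun f5 =>
            ten6 f0 f1 f2 f3 f4 f5

/-- the packed moments -/
def TT (T9 T12 T15 T18 T19 T10 H H' : ℕ) : ℕ :=
  sumN (fun j => force (row T9 j) fun a => force (row T12 j) fun b => force (row T15 j) fun c =>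
    force (row T18 j) fun d => force (row T19 j) fun e => force (row T10 j) fun g => XX H H' a b c d e g) 313

/-- the check of a block of 125 fields of one number -/
def nz (b l : ℕ) : Bool := ! Nat.beq (Nat.mod (Nat.mod (Nat.shiftRight b (Nat.mul 24 l)) (Nat.pow 2 24)) 5) 0

/-- a block of 125 fields -/
def blk (T u : ℕ) : ℕ := Nat.mod (Nat.shiftRight T (Nat.mul 3000 u)) (Nat.pow 2 3000)

/-- the final check -/
def finChk (T1 T2 T3 T4 T5 T6 : ℕ) : Bool :=
  allLt 125 fun u => force (blk T1 u) fun b1 => force (blk T2 u) fun b2 => force (blk T3 u) fun b3 =>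
    force (blk T4 u) fun b4 => force (blk T5 u) fun b5 => force (blk T6 u) fun b6 =>
      allLt 125 fun l => (Nat.beq u 0 && Nat.beq l 0) || (nz b1 l || (nz b2 l || (nz b3 l || (nz b4 l ||
        (nz b5 l || nz b6 l)))))

end Cfsg.Agent.H138.E65
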