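import Cfsg.Agent.H163.E65.Inst

/-!
# Packed vectors and matrices over `ZMod 5` (task CERT of S3650)

A vector indexed by `I27` is packed in a natural number with fields of 16 bits, a matrix in a natural number with fields
of 432 bits (one for each row).
-/

set_option autoImplicit false

namespace Cfsg.Agent.H138.E65

open Cfsg.Lie Cfsg.Agent.ChevalleyStructure.E6Min.Tables Cfsg.Agent.ChevalleyStructure.E6Min.Basic
open scoped Matrix

abbrev F5 : Type := ZMod 5

/-! ### digits -/

theorem dig {b : ℕ} (hb : 0 < b) : ∀ (i n : ℕ) (f : ℕ → ℕ), (∀ i, f i < b) → i < n →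
    (∑ j ∈ Finset.range n, f j * b ^ j) / b ^ i % b = f i := by
  intro i
  induction i with
  | zero =>
    intro n f hf hi
    obtain ⟨n, rfl⟩ := Nat.exists_eq_succ_of_ne_zero (by omega : n ≠ 0)
    have h : ∑ j ∈ Finset.range (n + 1), f j * b ^ j = f 0 + b * ∑ j ∈ Finset.range n, f (j + 1) * b ^ j := by
      rw [Finset.sum_range_succ', pow_zero, mul_one, add_comm, Finset.mul_sum]
      congr 1
      exact Finset.sum_congr rfl fun j _ => by ring
    rw [Nat.succ_eq_add_one, h, pow_zero, Nat.div_one, Nat.add_mul_mod_self_left, Nat.mod_eq_of_lt (hf 0)]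
  | succ i ih =>
    intro n f hf hi
    obtain ⟨n, rfl⟩ := Nat.exists_eq_succ_of_ne_zero (by omega : n ≠ 0)
    have h : ∑ j ∈ Finset.range (n + 1), f j * b ^ j = f 0 + b * ∑ j ∈ Finset.range n, f (j + 1) * b ^ j := by
      rw [Finset.sum_range_succ', pow_zero, mul_one, add_comm, Finset.mul_sum]
      congr 1
      exact Finset.sum_congr rfl fun j _ => by ring
    rw [Nat.succ_eq_add_one, h, pow_succ', ← Nat.div_div_eq_div_mul, Nat.add_mul_div_left _ _ hb,
      Nat.div_eq_of_lt (hf 0), zero_add]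
    exact ih n (fun j => f (j + 1)) (fun j => hf _) (by omega)

theorem sum_lt {b : ℕ} (f : ℕ → ℕ) (hf : ∀ i, f i < b) (n : ℕ) :
    ∑ j ∈ Finset.range n, f j * b ^ j < b ^ n := by
  induction n with
  | zero => simp
  | succ n ih =>
    rw [Finset.sum_range_succ, pow_succ]
    have h : (f n + 1) * b ^ n ≤ b * b ^ n := Nat.mul_le_mul_right _ (hf n)
    nlinarith [hf n]

/-! ### the operations -/

/-- `65536 ^ 27` -/
def cC : ℕ := 0x1000000000000000000000000000000000000000000000000000000000000000000000000000000000000000000000000000000000000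

theorem cC_eq : cC = 65536 ^ 27 := by decide +kernel

theorem cC_pos : 0 < cC := by decide +kernel

/-- the field `i` of a packed vector -/
def fld (v i : ℕ) : ℕ := Nat.mod (Nat.shiftRight v (Nat.mul 16 i)) 65536

/-- the row `i` of a packed matrix -/
def row (M i : ℕ) : ℕ := Nat.mod (Nat.shiftRight M (Nat.mul 432 i)) cC

/-- sum of `g i`, `i < n` -/
def sumN (g : ℕ → ℕ) (n : ℕ) : ℕ := Nat.rec 0 (fun i acc => Nat.add (g i) acc) n

/-- vector times matrix -/
def vm (v M : ℕ) : ℕ := sumN (fun i => Nat.mul (Nat.mod (fld v i) 5) (row M i)) 27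

/-- reduction modulo 5 of the fields -/
def nrm (v : ℕ) : ℕ := sumN (fun i => Nat.mul (Nat.mod (fld v i) 5) (Nat.pow 65536 i)) 27

/-- the entry `(x, sr r x)` of `N_r` modulo 5 -/
def s5 (r x : ℕ) : ℕ := if ent r x < 32 then 0 else if ent r x < 64 then 1 else 4

/-- the packed matrix of `z_r(t)` -/
def pz (r t : ℕ) : ℕ := sumN (fun x => Nat.mul (Nat.add (Nat.pow 65536 x)
    (Nat.mul (Nat.mod (Nat.mul t (s5 r x)) 5) (Nat.pow 65536 (srN r x)))) (Nat.pow cC x)) 27

/-- vector times the matrix of a letter -/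
@[irreducible] def stp (v : ℕ) (l : ℕ × ℕ) : ℕ := vm v (pz l.1 l.2)

theorem stp_eq (v : ℕ) (l : ℕ × ℕ) : stp v l = vm v (pz l.1 l.2) := by unfold stp; rfl

/-- vector times the matrix of a word -/
def rw' (w : List (ℕ × ℕ)) (v : ℕ) : ℕ := w.foldl stp v

theorem rw'_nil (v : ℕ) : rw' [] v = v := by unfold rw'; rw [List.foldl_nil]

theorem rw'_cons (l : ℕ × ℕ) (w : List (ℕ × ℕ)) (v : ℕ) : rw' (l :: w) v = rw' w (stp v l) := by
  unfold rw'; rw [List.foldl_cons]

/-- the packed matrix of a word -/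
def pwd (w : List (ℕ × ℕ)) : ℕ := sumN (fun x => Nat.mul (nrm (rw' w (Nat.pow 65536 x))) (Nat.pow cC x)) 27

/-- product of packed matrices -/
def mm (A B : ℕ) : ℕ := sumN (fun x => Nat.mul (nrm (vm (row A x) B)) (Nat.pow cC x)) 27

theorem sumN_eq (g : ℕ → ℕ) (n : ℕ) : sumN g n = ∑ i ∈ Finset.range n, g i := by
  induction n with
  | zero => rfl
  | succ n ih =>
    rw [Finset.sum_range_succ, ← ih]
    exact Nat.add_comm (g n) (sumN g n)

theorem fld_eq (v i : ℕ) : fld v i = v / 65536 ^ i % 65536 := by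
  show (v >>> (16 * i)) % 65536 = _
  rw [Nat.shiftRight_eq_div_pow, pow_mul]
  norm_num

theorem row_eq (M i : ℕ) : row M i = M / cC ^ i % cC := by
  show (M >>> (432 * i)) % cC = _
  have h : 2 ^ (432 * i) = cC ^ i := by
    rw [cC_eq, ← pow_mul, show (65536 : ℕ) = 2 ^ 16 by norm_num, ← pow_mul, ← mul_assoc]
    rfl
  rw [Nat.shiftRight_eq_div_pow, h]

/-! ### semantics -/

attribute [irreducible] sumN cC

theorem sum_I27 {R : Type*} [AddCommMonoid R] (g : I27 → R) : ∑ x : I27, g x = ∑ i ∈ Finset.range 27, g (dec i) := by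
  refine Finset.sum_nbij' code dec ?_ ?_ ?_ ?_ ?_
  · intro x _; exact Finset.mem_range.2 (code_lt x)
  · intro i _; exact Finset.mem_univ _
  · intro x _; exact dec_code x
  · intro i hi; exact code_dec (Finset.mem_range.1 hi)
  · intro x _; rw [dec_code]

/-- the natural number `v` represents the vector `φ`, all fields are at most `b` -/
def Rp (b v : ℕ) (φ : I27 → F5) : Prop :=
  ∃ f : ℕ → ℕ, (∀ i, f i ≤ b) ∧ v = ∑ i ∈ Finset.range 27, f i * 65536 ^ i ∧
    ∀ i < 27, ((f i : ℕ) : F5) = φ (dec i)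

/-- the natural number `M` represents the matrix `A`, all fields are at most `b` -/
def RpM (b M : ℕ) (A : Matrix I27 I27 F5) : Prop := ∀ i < 27, Rp b (row M i) (A (dec i))

theorem Rp.fld {b v : ℕ} {φ : I27 → F5} (h : Rp b v φ) (hb : b < 65536) {i : ℕ} (hi : i < 27) :
    fld v i ≤ b ∧ ((E65.fld v i : ℕ) : F5) = φ (dec i) := by
  obtain ⟨f, h1, h2, h3⟩ := h
  have : E65.fld v i = f i := by
    rw [fld_eq, h2]
    exact dig (by norm_num) i 27 f (fun i => lt_of_le_of_lt (h1 i) hb) hi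
  rw [this]
  exact ⟨h1 i, h3 i hi⟩

theorem cast_mod5 (n : ℕ) : ((n % 5 : ℕ) : F5) = (n : F5) := by
  rw [ZMod.natCast_mod]

theorem Rp.mono {b c v : ℕ} {φ : I27 → F5} (h : Rp b v φ) (hbc : b ≤ c) : Rp c v φ := by
  obtain ⟨f, h1, h2, h3⟩ := h
  exact ⟨f, fun i => (h1 i).trans hbc, h2, h3⟩

theorem Rp.nrm {b v : ℕ} {φ : I27 → F5} (h : Rp b v φ) (hb : b < 65536) : Rp 4 (nrm v) φ := by
  refine ⟨fun i => E65.fld v i % 5, fun i => Nat.le_of_lt_succ (Nat.mod_lt (E65.fld v i) (by norm_num : 5 > 0)), ?_, ?_⟩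
  · rw [E65.nrm, sumN_eq]
    rfl
  · intro i hi
    simp only [cast_mod5]
    exact (h.fld hb hi).2

theorem Rp.lt {b v : ℕ} {φ : I27 → F5} (h : Rp b v φ) (hb : b < 65536) : v < cC := by
  obtain ⟨f, h1, h2, -⟩ := h
  have := sum_lt f (fun i => lt_of_le_of_lt (h1 i) hb) 27
  rw [← h2, ← cC_eq] at this
  exact this

theorem Rp.vm {b c v M : ℕ} {φ : I27 → F5} {A : Matrix I27 I27 F5} (h : Rp b v φ) (hb : b < 65536)
    (hM : RpM c M A) : Rp (108 * c) (vm v M) (φ ᵥ* A) := by
  choose! g g1 g2 g3 using hM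
  refine ⟨fun k => ∑ i ∈ Finset.range 27, (E65.fld v i % 5) * g i k, fun k => ?_, ?_, ?_⟩
  · have : ∀ i ∈ Finset.range 27, (E65.fld v i % 5) * g i k ≤ 4 * c := by
      intro i hi
      have := Nat.mod_lt (E65.fld v i) (by norm_num : 5 > 0)
      exact Nat.mul_le_mul (by omega) (g1 i (Finset.mem_range.1 hi) k)
    refine (Finset.sum_le_sum this).trans ?_
    rw [Finset.sum_const, Finset.card_range, smul_eq_mul]
    omega
  · rw [E65.vm, sumN_eq]
    have : ∀ i ∈ Finset.range 27, Nat.mul (Nat.mod (E65.fld v i) 5) (row M i) =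
        ∑ k ∈ Finset.range 27, (E65.fld v i % 5) * g i k * 65536 ^ k := by
      intro i hi
      show (E65.fld v i % 5) * row M i = _
      rw [g2 i (Finset.mem_range.1 hi), Finset.mul_sum]
      exact Finset.sum_congr rfl fun k _ => by ring
    rw [Finset.sum_congr rfl this, Finset.sum_comm]
    exact Finset.sum_congr rfl fun k _ => by rw [Finset.sum_mul]
  · intro k hk
    push_cast
    rw [Matrix.vecMul, dotProduct, sum_I27]
    refine Finset.sum_congr rfl fun i hi => ?_
    have hi := Finset.mem_range.1 hi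
    rw [← g3 i hi k hk, cast_mod5, (h.fld hb hi).2]

theorem row_sumN {f : ℕ → ℕ} (hf : ∀ i < 27, f i < cC) {x : ℕ} (hx : x < 27) :
    row (sumN (fun x => Nat.mul (f x) (Nat.pow cC x)) 27) x = f x := by
  rw [row_eq, sumN_eq]
  have h := dig (b := cC) cC_pos x 27 (fun i => if i < 27 then f i else 0)
    (fun i => by
      show (if i < 27 then f i else 0) < cC
      split_ifs with h
      · exact hf i h
      · exact cC_pos) hx
  simp only [hx, if_true] at h
  rw [← h]
  have e : ∑ i ∈ Finset.range 27, Nat.mul (f i) (Nat.pow cC i) =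
      ∑ j ∈ Finset.range 27, (if j < 27 then f j else 0) * cC ^ j := by
    refine Finset.sum_congr rfl fun i hi => ?_
    rw [if_pos (Finset.mem_range.1 hi)]
    rfl
  rw [e]

theorem s5_cast (r x : ℕ) : ((s5 r x : ℕ) : F5) = ((sgN r x : ℤ) : F5) := by
  unfold s5 sgN
  split_ifs
  · simp
  · simp
  · simp only [Nat.cast_ofNat, Int.cast_neg, Int.cast_one]
    decide

theorem s5_le (r x : ℕ) : s5 r x ≤ 4 := by
  unfold s5; split_ifs <;> omega

theorem pz_rp {r : ℕ} (hr : r < 72) (t : ℕ) : RpM 5 (pz r t) (zM r (t : F5)) := by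
  intro x hx
  have hs := srN_lt hr hx
  have hc : ∀ x, (t * s5 r x) % 5 ≤ 4 := fun x => by
    have := Nat.mod_lt (t * s5 r x) (by norm_num : 5 > 0); omega
  have hlt : ∀ i < 27, 65536 ^ i + ((t * s5 r i) % 5) * 65536 ^ (srN r i) < cC := by
    intro i hi
    have h1 : 65536 ^ i ≤ 65536 ^ 26 := Nat.pow_le_pow_right (by norm_num) (by omega)
    have h2 : 65536 ^ (srN r i) ≤ 65536 ^ 26 := Nat.pow_le_pow_right (by norm_num) (by have := srN_lt hr hi; omega)
    have h3 : ((t * s5 r i) % 5) * 65536 ^ (srN r i) ≤ 4 * 65536 ^ 26 := Nat.mul_le_mul (hc i) h2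
    have h4 : 5 * 65536 ^ 26 < cC := by decide +kernel
    omega
  have hrow : row (pz r t) x = 65536 ^ x + ((t * s5 r x) % 5) * 65536 ^ (srN r x) := row_sumN hlt hx
  rw [hrow]
  refine ⟨fun k => (if k = x then 1 else 0) + (if k = srN r x then (t * s5 r x) % 5 else 0), fun k => ?_, ?_, ?_⟩
  · have := hc x
    show (if k = x then 1 else 0) + (if k = srN r x then (t * s5 r x) % 5 else 0) ≤ 5
    split_ifs <;> omega
  · simp only [add_mul, Finset.sum_add_distrib, ite_mul, one_mul, zero_mul, Finset.sum_ite_eq', Finset.mem_range,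
      hx, hs, if_true]
  · intro k hk
    rw [zM_def, Matrix.add_apply, Matrix.smul_apply, Matrix.one_apply, Nm_apply, smul_eq_mul]
    have h1 : (dec x = dec k) ↔ (k = x) := by rw [dec_eq_iff hx hk]; exact eq_comm
    have h2 : (dec k = sr r (dec x)) ↔ (k = srN r x) := by
      unfold sr
      rw [code_dec hx, dec_eq_iff hk hs]
    have h3 : sg r (dec x) = sgN r x := by unfold sg; rw [code_dec hx]
    simp only [h1, h2, h3]
    rw [Nat.cast_add]
    congr 1
    · split_ifs <;> simp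
    · split_ifs
      · rw [cast_mod5, Nat.cast_mul, s5_cast]
      · simp

/-! ### words -/

/-- the matrix of a word -/
def Mw (w : List (ℕ × ℕ)) : Matrix I27 I27 F5 := (w.map fun l => zM l.1 (l.2 : F5)).prod

/-- all indices are smaller than 72 -/
def okw (w : List (ℕ × ℕ)) : Prop := ∀ l ∈ w, l.1 < 72

theorem Rp.rw' {w : List (ℕ × ℕ)} (hw : okw w) : ∀ {v : ℕ} {φ : I27 → F5}, Rp 540 v φ →
    Rp 540 (rw' w v) (φ ᵥ* Mw w) := by
  induction w with
  | nil =>
    intro v φ h
    rw [rw'_nil, Mw, List.map_nil, List.prod_nil, Matrix.vecMul_one]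
    exact h
  | cons l w ih =>
    intro v φ h
    have h1 := (h.vm (by norm_num) (pz_rp (hw l (by simp)) l.2)).mono (c := 540) (by norm_num)
    have h2 := ih (fun l hl => hw l (by simp [hl])) h1
    have e : Mw (l :: w) = zM l.1 (l.2 : F5) * Mw w := by rw [Mw, List.map_cons, List.prod_cons]; rfl
    rw [e, ← Matrix.vecMul_vecMul, rw'_cons, stp_eq]
    exact h2

theorem single_rp {x : ℕ} (hx : x < 27) : Rp 540 (Nat.pow 65536 x) (Pi.single (dec x) 1) := by
  refine ⟨fun k => if k = x then 1 else 0, fun k => by dsimp only; split_ifs <;> omega, ?_, ?_⟩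
  · simp only [ite_mul, one_mul, zero_mul, Finset.sum_ite_eq', Finset.mem_range, hx, if_true]
    rfl
  · intro k hk
    rw [Pi.single_apply]
    have h1 : (dec k = dec x) ↔ (k = x) := dec_eq_iff hk hx
    simp only [h1]
    split_ifs <;> simp

theorem row_rp {w : List (ℕ × ℕ)} (hw : okw w) {x : ℕ} (hx : x < 27) :
    Rp 4 (nrm (rw' w (Nat.pow 65536 x))) (Mw w (dec x)) := by
  have h := ((single_rp hx).rw' hw).nrm (by norm_num)
  rwa [Matrix.single_one_vecMul] at h

theorem pwd_rp {w : List (ℕ × ℕ)} (hw : okw w) : RpM 4 (pwd w) (Mw w) := by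
  intro x hx
  have : row (pwd w) x = nrm (rw' w (Nat.pow 65536 x)) :=
    row_sumN (f := fun x => nrm (rw' w (Nat.pow 65536 x))) (fun i hi => (row_rp hw hi).lt (by norm_num)) hx
  rw [this]
  exact row_rp hw hx

theorem RpM.row {M : ℕ} {A : Matrix I27 I27 F5} {x : ℕ} (h : RpM 4 M A) (hx : x < 27) : Rp 4 (row M x) (A (dec x)) :=
  h x hx

theorem mm_rp {M N : ℕ} {A B : Matrix I27 I27 F5} (hA : RpM 4 M A) (hB : RpM 4 N B) : RpM 4 (mm M N) (A * B) := by
  intro x hx
  have h : ∀ x < 27, Rp 4 (nrm (vm (E65.row M x) N)) ((A * B) (dec x)) := by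
    intro x hx
    have h1 := ((hA x hx).vm (by norm_num) hB).nrm (by norm_num)
    have e : A (dec x) ᵥ* B = (A * B) (dec x) := by
      funext y
      rfl
    rwa [e] at h1
  have : E65.row (mm M N) x = nrm (vm (E65.row M x) N) :=
    row_sumN (f := fun x => nrm (vm (E65.row M x) N)) (fun i hi => (h i hi).lt (by norm_num)) hx
  rw [this]
  exact h x hx

theorem ext_of_rp {M : ℕ} {A B : Matrix I27 I27 F5} (hA : RpM 4 M A) (hB : RpM 4 M B) : A = B := by
  ext x y
  have h1 := ((hA (code x) (code_lt x)).fld (by norm_num) (code_lt y)).2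
  have h2 := ((hB (code x) (code_lt x)).fld (by norm_num) (code_lt y)).2
  rw [dec_code, dec_code] at h1 h2
  rw [← h1, ← h2]

end Cfsg.Agent.H138.E65
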