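import Mathlib
import Cfsg.Prelude.Def_E6
import Cfsg.Agent.H163.E65.Defs
import Cfsg.Agent.H138.E65.Iso

/-!
# `SL₃(125)` in the isometry group of the cubic form over the field with 5 elements (task SL3 of S3650)

`L (X) = v * (X, σX, σ²X)` (twisted, `v` in `K[C₃]` of norm 1 with `σ v = g v`) has coordinates in `ZMod 5` and
`T (L X) = det X + σ det X + σ² det X - tr (X σX σ²X)`, invariant under `X ↦ A X (σA)⁻¹`.
-/

set_option autoImplicit false

namespace Cfsg.Agent.H138.E65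

open Matrix Cfsg.Lie Cfsg.Agent.H163.E65
open scoped MatrixGroups

universe u

/-- the data of the isometry -/
structure Dat (K : Type u) [Field K] where
  s : K →+* K
  cube : ∀ x, s (s (s x)) = x
  v0 : K
  v1 : K
  v2 : K
  hv0 : s v0 = v2
  hv1 : s v1 = v0
  hv2 : s v2 = v1
  hN : v0 ^ 3 + v1 ^ 3 + v2 ^ 3 - 3 * v0 * v1 * v2 = 1
  h2 : (2 : K) ≠ 0
  h3 : (3 : K) ≠ 0

variable {K : Type u} [Field K]

/-- `1/3` of the trace -/
def tt (X : Matrix (Fin 3) (Fin 3) K) : K := 3⁻¹ * X.trace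

/-- the traceless part -/
def yy (X : Matrix (Fin 3) (Fin 3) K) : Matrix (Fin 3) (Fin 3) K := X - tt X • 1

theorem tt_add (X Y : Matrix (Fin 3) (Fin 3) K) : tt (X + Y) = tt X + tt Y := by
  simp only [tt, Matrix.trace_add, mul_add]

theorem yy_add (X Y : Matrix (Fin 3) (Fin 3) K) : yy (X + Y) = yy X + yy Y := by
  simp only [yy, tt_add, add_smul]
  abel

theorem yy_trace (h3 : (3 : K) ≠ 0) (X : Matrix (Fin 3) (Fin 3) K) : (yy X).trace = 0 := by
  simp only [yy, tt, Matrix.trace_sub, Matrix.trace_smul, Matrix.trace_one, Fintype.card_fin, smul_eq_mul]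
  push_cast
  field_simp
  ring

theorem tt_yy (X : Matrix (Fin 3) (Fin 3) K) : tt X • 1 + yy X = X := by
  simp only [yy]
  abel

namespace Dat

variable (D : Dat K)

def u0 : K := D.v0 ^ 2 - D.v1 * D.v2
def u1 : K := D.v2 ^ 2 - D.v0 * D.v1
def u2 : K := D.v1 ^ 2 - D.v0 * D.v2
def w0 : K := D.u0 ^ 2 + 2 * D.u1 * D.u2
def w1 : K := 2 * D.u0 * D.u1 + D.u2 ^ 2
def w2 : K := D.u1 ^ 2 + 2 * D.u0 * D.u2

theorem su0 : D.s D.u0 = D.u1 := by
  simp only [u0, u1, map_sub, map_mul, map_pow, D.hv0, D.hv1, D.hv2]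

theorem su1 : D.s D.u1 = D.u2 := by
  simp only [u1, u2, map_sub, map_mul, map_pow, D.hv0, D.hv1, D.hv2]
  ring

theorem su2 : D.s D.u2 = D.u0 := by
  simp only [u0, u2, map_sub, map_mul, map_pow, D.hv0, D.hv1, D.hv2]
  ring

theorem sw0 : D.s D.w0 = D.w2 := by
  simp only [w0, w2, map_add, map_mul, map_pow, map_ofNat, D.su0, D.su1, D.su2]
  ring

theorem sw1 : D.s D.w1 = D.w0 := by
  simp only [w0, w1, map_add, map_mul, map_pow, map_ofNat, D.su0, D.su1, D.su2]
  ring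

theorem sw2 : D.s D.w2 = D.w1 := by
  simp only [w1, w2, map_add, map_mul, map_pow, map_ofNat, D.su0, D.su1, D.su2]
  ring

theorem H0 : D.w0 * (D.v0 ^ 2 + 2 * D.v1 * D.v2) + D.w1 * (D.v1 ^ 2 + 2 * D.v0 * D.v2) +
    D.w2 * (2 * D.v0 * D.v1 + D.v2 ^ 2) = 1 := by
  have h := D.hN
  have e : D.w0 * (D.v0 ^ 2 + 2 * D.v1 * D.v2) + D.w1 * (D.v1 ^ 2 + 2 * D.v0 * D.v2) +
      D.w2 * (2 * D.v0 * D.v1 + D.v2 ^ 2) =
      (D.v0 ^ 3 + D.v1 ^ 3 + D.v2 ^ 3 - 3 * D.v0 * D.v1 * D.v2) ^ 2 := by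
    simp only [w0, w1, w2, u0, u1, u2]
    ring
  rw [e, h, one_pow]

theorem H1 : D.w0 * (2 * D.v0 * D.v1 + D.v2 ^ 2) + D.w1 * (D.v0 ^ 2 + 2 * D.v1 * D.v2) +
    D.w2 * (D.v1 ^ 2 + 2 * D.v0 * D.v2) = 0 := by
  simp only [w0, w1, w2, u0, u1, u2]
  ring

theorem H2 : D.w0 * (D.v1 ^ 2 + 2 * D.v0 * D.v2) + D.w1 * (2 * D.v0 * D.v1 + D.v2 ^ 2) +
    D.w2 * (D.v0 ^ 2 + 2 * D.v1 * D.v2) = 0 := by
  simp only [w0, w1, w2, u0, u1, u2]
  ring

theorem Hw : D.w0 ^ 3 + D.w1 ^ 3 + D.w2 ^ 3 - 3 * D.w0 * D.w1 * D.w2 = 1 := by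
  have h := D.hN
  have e : D.w0 ^ 3 + D.w1 ^ 3 + D.w2 ^ 3 - 3 * D.w0 * D.w1 * D.w2 =
      (D.u0 ^ 3 + D.u1 ^ 3 + D.u2 ^ 3 - 3 * D.u0 * D.u1 * D.u2) ^ 2 := by
    simp only [w0, w1, w2]
    ring
  have e' : D.u0 ^ 3 + D.u1 ^ 3 + D.u2 ^ 3 - 3 * D.u0 * D.u1 * D.u2 =
      (D.v0 ^ 3 + D.v1 ^ 3 + D.v2 ^ 3 - 3 * D.v0 * D.v1 * D.v2) ^ 2 := by
    simp only [u0, u1, u2]
    ring
  rw [e, e', h, one_pow, one_pow]

/-- the Frobenius map on matrices -/
abbrev m (X : Matrix (Fin 3) (Fin 3) K) : Matrix (Fin 3) (Fin 3) K := X.map D.s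

/-- first matrix -/
def M0 (X : Matrix (Fin 3) (Fin 3) K) : Matrix (Fin 3) (Fin 3) K :=
  (D.w0 * tt X + D.w1 * D.s (D.s (tt X)) + D.w2 * D.s (tt X)) • 1 +
    (D.v0 • yy X + D.v1 • D.m (D.m (yy X)) + D.v2 • D.m (yy X))

/-- second matrix -/
def M1 (X : Matrix (Fin 3) (Fin 3) K) : Matrix (Fin 3) (Fin 3) K :=
  (D.w0 * D.s (tt X) + D.w1 * tt X + D.w2 * D.s (D.s (tt X))) • 1 +
    (D.v0 • D.m (yy X) + D.v1 • yy X + D.v2 • D.m (D.m (yy X)))

/-- third matrix -/
def M2 (X : Matrix (Fin 3) (Fin 3) K) : Matrix (Fin 3) (Fin 3) K :=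
  (D.w0 * D.s (D.s (tt X)) + D.w1 * D.s (tt X) + D.w2 * tt X) • 1 +
    (D.v0 • D.m (D.m (yy X)) + D.v1 • D.m (yy X) + D.v2 • yy X)

theorem m_add (X Y : Matrix (Fin 3) (Fin 3) K) : D.m (X + Y) = D.m X + D.m Y := by
  ext i j
  simp only [m, Matrix.map_apply, Matrix.add_apply, map_add]

theorem m_smul (c : K) (X : Matrix (Fin 3) (Fin 3) K) : D.m (c • X) = D.s c • D.m X := by
  ext i j
  simp only [m, Matrix.map_apply, Matrix.smul_apply, smul_eq_mul, map_mul]

theorem m_one : D.m (1 : Matrix (Fin 3) (Fin 3) K) = 1 :=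
  Matrix.map_one D.s (map_zero _) (map_one _)

theorem m_mul (X Y : Matrix (Fin 3) (Fin 3) K) : D.m (X * Y) = D.m X * D.m Y := Matrix.map_mul

theorem m_cube (X : Matrix (Fin 3) (Fin 3) K) : D.m (D.m (D.m X)) = X := by
  ext i j
  simp only [m, Matrix.map_apply, D.cube]

theorem m_trace (X : Matrix (Fin 3) (Fin 3) K) : (D.m X).trace = D.s X.trace := by
  simp only [m, Matrix.trace, Matrix.diag_apply, Matrix.map_apply, map_sum]

theorem m_det (X : Matrix (Fin 3) (Fin 3) K) : (D.m X).det = D.s X.det := by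
  simp only [m]
  exact (RingHom.map_det D.s X).symm

theorem M0_add (X Y : Matrix (Fin 3) (Fin 3) K) : D.M0 (X + Y) = D.M0 X + D.M0 Y := by
  simp only [M0, tt_add, yy_add, map_add, m_add, smul_add, mul_add, add_smul]
  abel

theorem M1_add (X Y : Matrix (Fin 3) (Fin 3) K) : D.M1 (X + Y) = D.M1 X + D.M1 Y := by
  simp only [M1, tt_add, yy_add, map_add, m_add, smul_add, mul_add, add_smul]
  abel

theorem M2_add (X Y : Matrix (Fin 3) (Fin 3) K) : D.M2 (X + Y) = D.M2 X + D.M2 Y := by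
  simp only [M2, tt_add, yy_add, map_add, m_add, smul_add, mul_add, add_smul]
  abel

theorem m_M0 (X : Matrix (Fin 3) (Fin 3) K) : D.m (D.M0 X) = D.M0 X := by
  simp only [M0, m_add, m_smul, m_one, m_cube, map_add, map_mul, D.cube, D.sw0, D.sw1, D.sw2, D.hv0, D.hv1, D.hv2]
  congr 1
  · congr 1
    ring
  · abel

theorem m_M1 (X : Matrix (Fin 3) (Fin 3) K) : D.m (D.M1 X) = D.M1 X := by
  simp only [M1, m_add, m_smul, m_one, m_cube, map_add, map_mul, D.cube, D.sw0, D.sw1, D.sw2, D.hv0, D.hv1, D.hv2]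
  congr 1
  · congr 1
    ring
  · abel

theorem m_M2 (X : Matrix (Fin 3) (Fin 3) K) : D.m (D.M2 X) = D.M2 X := by
  simp only [M2, m_add, m_smul, m_one, m_cube, map_add, map_mul, D.cube, D.sw0, D.sw1, D.sw2, D.hv0, D.hv1, D.hv2]
  congr 1
  · congr 1
    ring
  · abel

/-- the twisted form -/
def TX (X : Matrix (Fin 3) (Fin 3) K) : K :=
  X.det + D.s X.det + D.s (D.s X.det) - (X * D.m X * D.m (D.m X)).trace

theorem T3_M (X : Matrix (Fin 3) (Fin 3) K) : T3 (D.M0 X) (D.M1 X) (D.M2 X) = D.TX X := by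
  have t0 := yy_trace D.h3 X
  have t1 : (D.m (yy X)).trace = 0 := by rw [m_trace, t0, map_zero]
  have t2 : (D.m (D.m (yy X))).trace = 0 := by rw [m_trace, t1, map_zero]
  have h6 : (6 : K) ≠ 0 := by
    have : (6 : K) = 2 * 3 := by norm_num
    rw [this]
    exact mul_ne_zero D.h2 D.h3
  have h := T_rho D.v0 D.v1 D.v2 D.w0 D.w1 D.w2 (tt X) (D.s (tt X)) (D.s (D.s (tt X))) (yy X) (D.m (yy X))
    (D.m (D.m (yy X))) t0 t1 t2 h6 D.hN D.Hw D.H0 D.H1 D.H2
  have e0 : tt X • 1 + yy X = X := tt_yy X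
  have e1 : D.s (tt X) • 1 + D.m (yy X) = D.m X := by
    rw [← D.m_one, ← D.m_smul, ← D.m_add, e0]
  have e2 : D.s (D.s (tt X)) • 1 + D.m (D.m (yy X)) = D.m (D.m X) := by
    rw [← D.m_one, ← D.m_smul, ← D.m_add, e1]
  rw [e0, e1, e2] at h
  unfold M0 M1 M2
  rw [h, T3, TX, D.m_det, D.m_det, D.m_det]

/-- the twisted form is invariant under `X ↦ A X (σA)⁻¹` -/
theorem TX_act (A B X : Matrix (Fin 3) (Fin 3) K) (hA : A.det = 1) (hAB : A * B = 1) :
    D.TX (A * X * D.m B) = D.TX X := by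
  have hBA : B * A = 1 := mul_eq_one_comm.mp hAB
  have hB : B.det = 1 := by
    have h := congrArg Matrix.det hAB
    rw [Matrix.det_mul, hA, one_mul, Matrix.det_one] at h
    exact h
  have hd : (A * X * D.m B).det = X.det := by
    rw [Matrix.det_mul, Matrix.det_mul, D.m_det, hA, hB, map_one, one_mul, mul_one]
  have h1 : D.m B * D.m A = 1 := by rw [← D.m_mul, hBA, D.m_one]
  have h2 : D.m (D.m B) * D.m (D.m A) = 1 := by rw [← D.m_mul, h1, D.m_one]
  have h4 : A * X * D.m B * D.m (A * X * D.m B) * D.m (D.m (A * X * D.m B)) = A * (X * D.m X * D.m (D.m X)) * B := by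
    simp only [m_mul, m_cube]
    calc A * X * D.m B * (D.m A * D.m X * D.m (D.m B)) * (D.m (D.m A) * D.m (D.m X) * B) =
        A * X * (D.m B * D.m A) * D.m X * (D.m (D.m B) * D.m (D.m A)) * D.m (D.m X) * B := by
          simp only [mul_assoc]
      _ = _ := by
          rw [h1, h2]
          simp only [mul_assoc, mul_one]
  rw [TX, hd, h4, Matrix.trace_mul_comm, ← mul_assoc, hBA, one_mul, TX]

theorem M_inj (X : Matrix (Fin 3) (Fin 3) K) (h0 : D.M0 X = 0) (h1 : D.M1 X = 0) (h2 : D.M2 X = 0) : X = 0 := by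
  have t0 := yy_trace D.h3 X
  have t1 : (D.m (yy X)).trace = 0 := by rw [m_trace, t0, map_zero]
  have t2 : (D.m (D.m (yy X))).trace = 0 := by rw [m_trace, t1, map_zero]
  have key : ∀ c : K, c * 3 = 0 → c = 0 := fun c hc => (mul_eq_zero.mp hc).resolve_right D.h3
  have e0 : D.w0 * tt X + D.w1 * D.s (D.s (tt X)) + D.w2 * D.s (tt X) = 0 := by
    apply key
    have h := congrArg Matrix.trace h0
    rw [M0, Matrix.trace_add, Matrix.trace_add, Matrix.trace_add, Matrix.trace_smul, Matrix.trace_smul,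
      Matrix.trace_smul, Matrix.trace_smul, t0, t1, t2, Matrix.trace_one, Fintype.card_fin, Matrix.trace_zero] at h
    simpa using h
  have e1 : D.w0 * D.s (tt X) + D.w1 * tt X + D.w2 * D.s (D.s (tt X)) = 0 := by
    apply key
    have h := congrArg Matrix.trace h1
    rw [M1, Matrix.trace_add, Matrix.trace_add, Matrix.trace_add, Matrix.trace_smul, Matrix.trace_smul,
      Matrix.trace_smul, Matrix.trace_smul, t0, t1, t2, Matrix.trace_one, Fintype.card_fin, Matrix.trace_zero] at h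
    simpa using h
  have e2 : D.w0 * D.s (D.s (tt X)) + D.w1 * D.s (tt X) + D.w2 * tt X = 0 := by
    apply key
    have h := congrArg Matrix.trace h2
    rw [M2, Matrix.trace_add, Matrix.trace_add, Matrix.trace_add, Matrix.trace_smul, Matrix.trace_smul,
      Matrix.trace_smul, Matrix.trace_smul, t0, t1, t2, Matrix.trace_one, Fintype.card_fin, Matrix.trace_zero] at h
    simpa using h
  have et : tt X = 0 := by
    linear_combination (D.v0 ^ 2 + 2 * D.v1 * D.v2) * e0 + (D.v1 ^ 2 + 2 * D.v0 * D.v2) * e1 +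
      (2 * D.v0 * D.v1 + D.v2 ^ 2) * e2 - tt X * D.H0 - D.s (D.s (tt X)) * D.H1 - D.s (tt X) * D.H2
  have ey : yy X = 0 := by
    ext i j
    have f0 := congrFun (congrFun h0 i) j
    have f1 := congrFun (congrFun h1 i) j
    have f2 := congrFun (congrFun h2 i) j
    simp only [M0, M1, M2, e0, e1, e2, zero_smul, zero_add, Matrix.add_apply, Matrix.smul_apply, smul_eq_mul,
      Matrix.zero_apply, m, Matrix.map_apply] at f0 f1 f2
    rw [Matrix.zero_apply]
    have hN := D.hN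
    linear_combination (D.v0 ^ 2 - D.v1 * D.v2) * f0 + (D.v1 ^ 2 - D.v0 * D.v2) * f1 +
      (D.v2 ^ 2 - D.v0 * D.v1) * f2 - yy X i j * hN
  rw [← tt_yy X, et, ey, zero_smul, add_zero]

/-- the 27 coordinates -/
def LK : Matrix (Fin 3) (Fin 3) K →+ (I27 → K) where
  toFun X p := (![D.M0 X, D.M1 X, D.M2 X] p.1) p.2.1 p.2.2
  map_zero' := by
    have h0 : D.M0 0 = 0 := by
      have h := D.M0_add 0 0
      rw [add_zero] at h
      exact left_eq_add.mp h
    have h1 : D.M1 0 = 0 := by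
      have h := D.M1_add 0 0
      rw [add_zero] at h
      exact left_eq_add.mp h
    have h2 : D.M2 0 = 0 := by
      have h := D.M2_add 0 0
      rw [add_zero] at h
      exact left_eq_add.mp h
    funext ⟨k, i, j⟩
    rw [h0, h1, h2]
    fin_cases k <;> rfl
  map_add' X Y := by
    funext ⟨k, i, j⟩
    rw [D.M0_add, D.M1_add, D.M2_add]
    fin_cases k <;> rfl

theorem LK_fix (X : Matrix (Fin 3) (Fin 3) K) (p : I27) : D.s (D.LK X p) = D.LK X p := by
  obtain ⟨k, i, j⟩ := p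
  fin_cases k
  · exact congrFun (congrFun (D.m_M0 X) i) j
  · exact congrFun (congrFun (D.m_M1 X) i) j
  · exact congrFun (congrFun (D.m_M2 X) i) j

theorem LK_inj (X : Matrix (Fin 3) (Fin 3) K) (h : D.LK X = 0) : X = 0 := by
  apply D.M_inj X
  · ext i j
    exact congrFun h (0, i, j)
  · ext i j
    exact congrFun h (1, i, j)
  · ext i j
    exact congrFun h (2, i, j)

end Dat

theorem T3_map {F : Type*} {K : Type*} [Field F] [Field K] (φ : F →+* K) (a b c : Matrix (Fin 3) (Fin 3) F) :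
    φ (T3 a b c) = T3 (a.map φ) (b.map φ) (c.map φ) := by
  have hd : ∀ x : Matrix (Fin 3) (Fin 3) F, φ x.det = (x.map φ).det := fun x => RingHom.map_det φ x
  have ht : ∀ x : Matrix (Fin 3) (Fin 3) F, φ x.trace = (x.map φ).trace := by
    intro x
    simp only [Matrix.trace, Matrix.diag_apply, Matrix.map_apply, map_sum]
  rw [T3, T3, map_sub, map_add, map_add, hd, hd, hd, ht, Matrix.map_mul, Matrix.map_mul]

section
variable (D : Dat K) [Algebra (ZMod 5) K]

theorem exists_L (hfix : ∀ x : K, D.s x = x → ∃ c : ZMod 5, algebraMap (ZMod 5) K c = x) :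
    ∃ L : Matrix (Fin 3) (Fin 3) K →ₗ[ZMod 5] (I27 → ZMod 5), ∀ X p, algebraMap (ZMod 5) K (L X p) = D.LK X p := by
  obtain ⟨r, hr⟩ := LinearMap.exists_leftInverse_of_injective (Algebra.linearMap (ZMod 5) K)
    (LinearMap.ker_eq_bot.mpr (algebraMap (ZMod 5) K).injective)
  let g : Matrix (Fin 3) (Fin 3) K →+ (I27 → ZMod 5) :=
    { toFun := fun X p => r (D.LK X p)
      map_zero' := by
        funext p
        simp only [map_zero, Pi.zero_apply]
      map_add' := fun X Y => by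
        funext p
        simp only [map_add, Pi.add_apply] }
  refine ⟨g.toZModLinearMap 5, fun X p => ?_⟩
  obtain ⟨c, hc⟩ := hfix _ (D.LK_fix X p)
  have h1 : r (algebraMap (ZMod 5) K c) = c := congrFun (congrArg DFunLike.coe hr) c
  change algebraMap (ZMod 5) K (r (D.LK X p)) = D.LK X p
  rw [← hc, h1]

theorem cubicT_L {L : Matrix (Fin 3) (Fin 3) K →ₗ[ZMod 5] (I27 → ZMod 5)}
    (hL : ∀ X p, algebraMap (ZMod 5) K (L X p) = D.LK X p) (X : Matrix (Fin 3) (Fin 3) K) :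
    algebraMap (ZMod 5) K (cubicT (L X)) = D.TX X := by
  have h0 : (mat3 (L X) 0).map (algebraMap (ZMod 5) K) = D.M0 X := by
    ext i j
    exact hL X (0, i, j)
  have h1 : (mat3 (L X) 1).map (algebraMap (ZMod 5) K) = D.M1 X := by
    ext i j
    exact hL X (1, i, j)
  have h2 : (mat3 (L X) 2).map (algebraMap (ZMod 5) K) = D.M2 X := by
    ext i j
    exact hL X (2, i, j)
  have h := T3_map (algebraMap (ZMod 5) K) (mat3 (L X) 0) (mat3 (L X) 1) (mat3 (L X) 2)
  rw [h0, h1, h2, D.T3_M] at h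
  exact h

/-- the action `X ↦ A X (σA)⁻¹` -/
noncomputable def act (A : SL(3, K)) : Matrix (Fin 3) (Fin 3) K →ₗ[ZMod 5] Matrix (Fin 3) (Fin 3) K :=
  AddMonoidHom.toZModLinearMap 5
    { toFun := fun X => (A : Matrix (Fin 3) (Fin 3) K) * X * D.m ((A⁻¹ : SL(3, K)) : Matrix (Fin 3) (Fin 3) K)
      map_zero' := by simp
      map_add' := fun X Y => by rw [mul_add, add_mul] }

theorem act_apply (A : SL(3, K)) (X : Matrix (Fin 3) (Fin 3) K) :
    act D A X = (A : Matrix (Fin 3) (Fin 3) K) * X * D.m ((A⁻¹ : SL(3, K)) : Matrix (Fin 3) (Fin 3) K) := rfl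

theorem act_mul (A B : SL(3, K)) (X : Matrix (Fin 3) (Fin 3) K) : act D (A * B) X = act D A (act D B X) := by
  rw [act_apply, act_apply, act_apply, _root_.mul_inv_rev, Matrix.SpecialLinearGroup.coe_mul,
    Matrix.SpecialLinearGroup.coe_mul, D.m_mul]
  simp only [mul_assoc]

theorem act_one (X : Matrix (Fin 3) (Fin 3) K) : act D 1 X = X := by
  rw [act_apply, inv_one, Matrix.SpecialLinearGroup.coe_one, D.m_one, one_mul, mul_one]

theorem exists_rep (hfix : ∀ x : K, D.s x = x → ∃ c : ZMod 5, algebraMap (ZMod 5) K c = x)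
    (hdim : Module.finrank (ZMod 5) K = 3) (h5 : ∀ x : K, D.s x = x → x ^ 5 = x) :
    ∃ f : SL(3, K) →* Q5, Function.Injective f := by
  obtain ⟨L0, hL0⟩ := exists_L D hfix
  have : Module.Finite (ZMod 5) K := Module.finite_of_finrank_pos (by rw [hdim]; norm_num)
  have hinj : Function.Injective L0 := by
    rw [injective_iff_map_eq_zero]
    intro X hX
    apply D.LK_inj X
    funext p
    rw [← hL0 X p, hX, Pi.zero_apply, map_zero, Pi.zero_apply]
  have hfr : Module.finrank (ZMod 5) (Matrix (Fin 3) (Fin 3) K) = Module.finrank (ZMod 5) (I27 → ZMod 5) := by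
    rw [Module.finrank_matrix, Module.finrank_fintype_fun_eq_card, hdim]
    simp
  let L := L0.linearEquivOfInjective hinj hfr
  have hL : ∀ X, L X = L0 X := fun X => rfl
  -- the representation
  let ρ : SL(3, K) →* Matrix I27 I27 (ZMod 5) :=
    { toFun := fun A => LinearMap.toMatrix' (L.toLinearMap ∘ₗ act D A ∘ₗ L.symm.toLinearMap)
      map_one' := by
        rw [← LinearMap.toMatrix'_id]
        congr 1
        apply LinearMap.ext
        intro v
        change L (act D 1 (L.symm v)) = v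
        rw [act_one, LinearEquiv.apply_symm_apply]
      map_mul' := fun A B => by
        rw [← LinearMap.toMatrix'_comp]
        congr 1
        apply LinearMap.ext
        intro v
        change L (act D (A * B) (L.symm v)) = L (act D A (L.symm (L (act D B (L.symm v)))))
        rw [LinearEquiv.symm_apply_apply, act_mul] }
  have hρ : ∀ A v, ρ A *ᵥ v = L (act D A (L.symm v)) := fun A v => LinearMap.toMatrix'_mulVec _ v
  have hmem : ∀ A, ρ.toHomUnits A ∈ E6univ (ZMod 5) := by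
    intro A v
    change cubicT (ρ A *ᵥ v) = cubicT v
    rw [hρ]
    apply (algebraMap (ZMod 5) K).injective
    obtain ⟨X, rfl⟩ := L.surjective v
    rw [LinearEquiv.symm_apply_apply, hL, hL, cubicT_L D hL0, cubicT_L D hL0, act_apply]
    apply D.TX_act _ _ _ A.det_coe
    rw [← Matrix.SpecialLinearGroup.coe_mul, mul_inv_cancel, Matrix.SpecialLinearGroup.coe_one]
  refine ⟨ρ.toHomUnits.codRestrict (E6univ (ZMod 5)) hmem, ?_⟩
  rw [injective_iff_map_eq_one]
  intro A hA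
  have h1 : ρ A = 1 := congrArg (fun g : Q5 => ((g : GL I27 (ZMod 5)) : Matrix I27 I27 (ZMod 5))) hA
  have h2 : ∀ X, act D A X = X := by
    intro X
    have h := hρ A (L X)
    rw [h1, Matrix.one_mulVec, LinearEquiv.symm_apply_apply] at h
    exact L.injective h.symm
  have h3 : ∀ X : Matrix (Fin 3) (Fin 3) K, (A : Matrix (Fin 3) (Fin 3) K) * X = X * D.m (A : Matrix (Fin 3) (Fin 3) K) := by
    intro X
    have h := congrArg (fun Z => Z * D.m (A : Matrix (Fin 3) (Fin 3) K)) (h2 X)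
    simp only [act_apply] at h
    rw [mul_assoc, ← D.m_mul, ← Matrix.SpecialLinearGroup.coe_mul, inv_mul_cancel,
      Matrix.SpecialLinearGroup.coe_one, D.m_one, mul_one] at h
    exact h
  have h4 : D.m (A : Matrix (Fin 3) (Fin 3) K) = A := by
    have h := h3 1
    rw [mul_one, one_mul] at h
    exact h.symm
  have hc : A ∈ Subgroup.center SL(3, K) := by
    rw [Subgroup.mem_center_iff]
    intro B
    apply Subtype.ext
    have h := h3 (B : Matrix (Fin 3) (Fin 3) K)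
    rw [h4] at h
    rw [Matrix.SpecialLinearGroup.coe_mul, Matrix.SpecialLinearGroup.coe_mul]
    exact h.symm
  obtain ⟨r, hr3, hrA⟩ := Matrix.SpecialLinearGroup.mem_center_iff.mp hc
  rw [Fintype.card_fin] at hr3
  have hrs : D.s r = r := by
    have h := congrFun (congrFun h4 0) 0
    rw [← hrA] at h
    simpa using h
  have hr5 := h5 r hrs
  have hr0 : r ≠ 0 := by
    rintro rfl
    norm_num at hr3
  have hr1 : r = 1 := by
    have h : r * (r ^ 3 * r - 1) = 0 := by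
      linear_combination hr5
    have h' := (mul_eq_zero.mp h).resolve_left hr0
    rw [hr3, one_mul] at h'
    exact sub_eq_zero.mp h'
  apply Subtype.ext
  rw [← hrA, hr1]
  simp

end

theorem exists_v [Fintype K] (hK : Fintype.card K = 125) [CharP K 5] :
    ∃ v0 v1 v2 : K, v0 ^ 5 = v2 ∧ v1 ^ 5 = v0 ∧ v2 ^ 5 = v1 ∧
      v0 ^ 3 + v1 ^ 3 + v2 ^ 3 - 3 * v0 * v1 * v2 = 1 := by
  have hpow : ∀ x : K, x ^ 125 = x := fun x => by
    rw [← hK]
    exact FiniteField.pow_card x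
  obtain ⟨θ, hθ⟩ : ∃ θ : K, θ ^ 3 + θ ^ 15 + θ ^ 75 - 3 * θ ^ 31 ≠ 0 := by
    have hdeg : (Polynomial.X ^ 3 + Polynomial.X ^ 15 + Polynomial.X ^ 75 - 3 * Polynomial.X ^ 31 :
        Polynomial K).natDegree = 75 := by
      compute_degree!
    have hne : (Polynomial.X ^ 3 + Polynomial.X ^ 15 + Polynomial.X ^ 75 - 3 * Polynomial.X ^ 31 :
        Polynomial K) ≠ 0 := by
      intro h
      rw [h, Polynomial.natDegree_zero] at hdeg
      norm_num at hdeg
    obtain ⟨θ, h⟩ := Polynomial.exists_eval_ne_zero_of_natDegree_lt_card _ hne (by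
      rw [hdeg, Cardinal.mk_fintype, hK]
      norm_num)
    refine ⟨θ, ?_⟩
    simpa using h
  have h5 : (5 : K) = 0 := by
    have := CharP.cast_eq_zero K 5
    exact_mod_cast this
  set n : K := θ ^ 3 + θ ^ 15 + θ ^ 75 - 3 * θ ^ 31 with hn
  have hn5 : n ^ 5 = n := by
    have h1 : n ^ 5 = θ ^ 15 + θ ^ 75 + θ ^ 375 - 3 ^ 5 * θ ^ 155 := by
      rw [hn, sub_pow_char, add_pow_char, add_pow_char, mul_pow]
      ring
    have h2 : θ ^ 375 = θ ^ 3 := by
      rw [show 375 = 125 * 3 from rfl, pow_mul, hpow]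
    have h3 : θ ^ 155 = θ ^ 31 := by
      rw [show 155 = 125 + 30 from rfl, pow_add, hpow]
      ring
    rw [h1, h2, h3, hn]
    linear_combination (-48) * θ ^ 31 * h5
  have hn4 : n ^ 4 = 1 := by
    apply mul_left_cancel₀ hθ
    rw [← pow_succ', hn5, mul_one]
  refine ⟨n * θ, n * θ ^ 25, n * θ ^ 5, ?_, ?_, ?_, ?_⟩
  · rw [mul_pow, hn5]
  · rw [mul_pow, hn5, ← pow_mul, hpow]
  · rw [mul_pow, hn5, ← pow_mul]
  · have : (n * θ) ^ 3 + (n * θ ^ 25) ^ 3 + (n * θ ^ 5) ^ 3 - 3 * (n * θ) * (n * θ ^ 25) * (n * θ ^ 5) =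
        n ^ 3 * (θ ^ 3 + θ ^ 15 + θ ^ 75 - 3 * θ ^ 31) := by ring
    rw [this, ← hn, ← pow_succ, hn4]

/-- **Task SL3 of S3650.** -/
theorem exists_sl3 {K : Type u} [Field K] [Fintype K] (hK : Fintype.card K = 125) :
    ∃ f : SL(3, K) →* Q5, Function.Injective f := by
  have : CharP K 5 := charP_of_card_eq_prime_pow (p := 5) (f := 3) (by rw [hK]; norm_num)
  let _ : Algebra (ZMod 5) K := ZMod.algebra K 5
  obtain ⟨v0, v1, v2, h0, h1, h2, hN⟩ := exists_v hK
  have hpow : ∀ x : K, x ^ 125 = x := fun x => by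
    rw [← hK]
    exact FiniteField.pow_card x
  have hne : ∀ m : ℕ, ¬ 5 ∣ m → (m : K) ≠ 0 := fun m hm h => hm ((CharP.cast_eq_zero_iff K 5 m).mp h)
  let D : Dat K :=
    { s := frobenius K 5
      cube := fun x => by
        rw [frobenius_def, frobenius_def, frobenius_def, ← pow_mul, ← pow_mul]
        exact hpow x
      v0 := v0
      v1 := v1
      v2 := v2
      hv0 := h0
      hv1 := h1
      hv2 := h2
      hN := hN
      h2 := by exact_mod_cast hne 2 (by norm_num)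
      h3 := by exact_mod_cast hne 3 (by norm_num) }
  apply exists_rep D
  · intro x hx
    have h : x ^ 5 = x := hx
    rw [← Subfield.mem_bot_iff_pow_eq_self K 5, ← ZMod.fieldRange_castHom_eq_bot 5] at h
    obtain ⟨c, hc⟩ := h
    exact ⟨c, hc⟩
  · have h := Module.card_eq_pow_finrank (K := ZMod 5) (V := K)
    rw [hK, ZMod.card] at h
    have h' : (5 : ℕ) ^ 3 = 5 ^ Module.finrank (ZMod 5) K := by rw [← h]; norm_num
    exact (Nat.pow_right_injective (le_refl 5 |>.trans' (by norm_num)) h').symm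
  · intro x hx
    exact hx

end Cfsg.Agent.H138.E65
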